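import Mathlib

/-!
# Elements of order `r * s` in alternating groups (helper418)

`wt 2 = 4`, `wt s = s` otherwise.  For distinct primes `r`, `s`: the alternating group of degree `n` has an element
of order `r * s` if and only if `wt r + wt s ≤ n` (`exists_iff`).
-/

set_option autoImplicit false

namespace Cfsg.Agent.H418.AltAdj

open Equiv Equiv.Perm

/-- the weight of a prime -/
def wt (s : ℕ) : ℕ := if s = 2 then 4 else s

theorem wt_two : wt 2 = 4 := rfl

theorem wt_of_ne {s : ℕ} (h : s ≠ 2) : wt s = s := if_neg h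

theorem le_wt (s : ℕ) : s ≤ wt s := by
  unfold wt
  split_ifs with h
  · omega
  · exact le_rfl

variable {n : ℕ}

theorem exists_dvd_of_dvd_lcm {m : Multiset ℕ} {r : ℕ} (hr : r.Prime) (h : r ∣ m.lcm) : ∃ c ∈ m, r ∣ c := by
  induction m using Multiset.induction_on with
  | empty =>
    rw [Multiset.lcm_zero] at h
    exact absurd (Nat.dvd_one.1 h) hr.one_lt.ne'
  | cons a m ih =>
    rw [Multiset.lcm_cons] at h
    have h1 : r ∣ a * m.lcm := h.trans (lcm_dvd_mul a m.lcm)
    rcases hr.dvd_mul.1 h1 with h2 | h2
    · exact ⟨a, Multiset.mem_cons_self a m, h2⟩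
    · obtain ⟨c, hc, hc2⟩ := ih h2
      exact ⟨c, Multiset.mem_cons_of_mem hc, hc2⟩

/-- two members of the cycle type -/
theorem add_le_of_mem {m : Multiset ℕ} {a b : ℕ} (ha : a ∈ m) (hb : b ∈ m.erase a) : a + b ≤ m.sum := by
  rw [← Multiset.cons_erase ha, ← Multiset.cons_erase hb, Multiset.sum_cons, Multiset.sum_cons]
  omega

theorem add_le_mul {r s : ℕ} (hr : 2 ≤ r) (hs : 2 ≤ s) : r + s ≤ r * s := by nlinarith

/-- **non-adjacency** -/
theorem wt_add_le {g : alternatingGroup (Fin n)} {r s : ℕ} (hr : r.Prime) (hs : s.Prime) (hne : r ≠ s)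
    (hg : orderOf g = r * s) : wt r + wt s ≤ n := by
  -- reduce to `r` odd
  have key : ∀ r s : ℕ, r.Prime → s.Prime → r ≠ s → r ≠ 2 → orderOf g = r * s → wt r + wt s ≤ n := by
    intro r s hr hs hne hr2 hg
    rw [wt_of_ne hr2]
    have hord : (g : Perm (Fin n)).cycleType.lcm = r * s := by
      rw [lcm_cycleType, Subgroup.orderOf_coe, hg]
    have hsum : (g : Perm (Fin n)).cycleType.sum ≤ n := by
      have := sum_cycleType_le (g : Perm (Fin n))
      rwa [Fintype.card_fin] at this
    obtain ⟨c, hc, hrc⟩ := exists_dvd_of_dvd_lcm hr (hord ▸ Dvd.intro _ rfl)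
    obtain ⟨c', hc', hsc⟩ := exists_dvd_of_dvd_lcm hs (hord ▸ Dvd.intro_left _ rfl)
    have hcle : c ≤ (g : Perm (Fin n)).cycleType.sum := Multiset.single_le_sum (fun _ _ => Nat.zero_le _) _ hc
    have hc0 : 0 < c := by have := two_le_of_mem_cycleType hc; omega
    have hc0' : 0 < c' := by have := two_le_of_mem_cycleType hc'; omega
    by_cases hs2 : s = 2
    · subst hs2
      rw [wt_two]
      -- an even entry
      have hsgn : Equiv.Perm.sign (g : Perm (Fin n)) = 1 := mem_alternatingGroup.1 g.2
      have hpair : ∀ e ∈ (g : Perm (Fin n)).cycleType, Even e →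
          ∃ e' ∈ (g : Perm (Fin n)).cycleType.erase e, Even e' := by
        intro e he hev
        by_contra hcon
        push Not at hcon
        rw [sign_of_cycleType', ← Multiset.cons_erase he, Multiset.map_cons, Multiset.prod_cons,
          Even.neg_one_pow hev] at hsgn
        have h1 : (((g : Perm (Fin n)).cycleType.erase e).map fun n => -(-1 : ℤˣ) ^ n).prod = 1 := by
          apply Multiset.prod_eq_one
          intro x hx
          obtain ⟨y, hy, rfl⟩ := Multiset.mem_map.1 hx
          have hy2 : Odd y := by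
            rw [← Nat.not_even_iff_odd]
            exact hcon y hy
          rw [Odd.neg_one_pow hy2, neg_neg]
        rw [h1] at hsgn
        exact absurd hsgn (by decide)
      have hev' : Even c' := even_iff_two_dvd.2 hsc
      by_cases hce : Even c
      · obtain ⟨e', he', hev⟩ := hpair c hc hce
        have h2 := add_le_of_mem hc he'
        have h3 : 2 ≤ e' := two_le_of_mem_cycleType (Multiset.mem_of_mem_erase he')
        have h4 : r * 2 ≤ c := Nat.le_of_dvd hc0
          (Nat.Coprime.mul_dvd_of_dvd_of_dvd ((Nat.coprime_primes hr hs).2 hne) hrc (even_iff_two_dvd.1 hce))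
        have := hr.two_le
        omega
      · obtain ⟨e', he', hev⟩ := hpair c' hc' hev'
        have hcne : c ≠ c' := fun h => hce (h ▸ hev')
        have hcne2 : c ≠ e' := fun h => hce (h ▸ hev)
        have h3 : 2 ≤ e' := two_le_of_mem_cycleType (Multiset.mem_of_mem_erase he')
        have h5 : 2 ≤ c' := two_le_of_mem_cycleType hc'
        have hmem : c ∈ ((g : Perm (Fin n)).cycleType.erase c').erase e' :=
          (Multiset.mem_erase_of_ne hcne2).2 ((Multiset.mem_erase_of_ne hcne).2 hc)
        have h6 : c + (c' + e') ≤ (g : Perm (Fin n)).cycleType.sum := by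
          rw [← Multiset.cons_erase hc', ← Multiset.cons_erase he', ← Multiset.cons_erase hmem, Multiset.sum_cons,
            Multiset.sum_cons, Multiset.sum_cons]
          omega
        have h7 : r ≤ c := Nat.le_of_dvd hc0 hrc
        omega
    · rw [wt_of_ne hs2]
      by_cases hcs : s ∣ c
      · have h4 : r * s ≤ c := Nat.le_of_dvd hc0
          (Nat.Coprime.mul_dvd_of_dvd_of_dvd ((Nat.coprime_primes hr hs).2 hne) hrc hcs)
        have := add_le_mul hr.two_le hs.two_le
        omega
      · have hcne : c' ≠ c := fun h => hcs (h ▸ hsc)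
        have h2 := add_le_of_mem hc ((Multiset.mem_erase_of_ne hcne).2 hc')
        have h3 : r ≤ c := Nat.le_of_dvd hc0 hrc
        have h4 : s ≤ c' := Nat.le_of_dvd hc0' hsc
        omega
  by_cases hr2 : r = 2
  · have := key s r hs hr (Ne.symm hne) (fun h => hne (hr2.trans h.symm)) (by rw [hg, mul_comm])
    omega
  · exact key r s hr hs hne hr2 hg

/-- **adjacency** -/
theorem exists_of_wt {r s : ℕ} (hr : r.Prime) (hs : s.Prime) (hne : r ≠ s) (h : wt r + wt s ≤ n) :
    ∃ g : alternatingGroup (Fin n), orderOf g = r * s := by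
  have key : ∀ r s : ℕ, r.Prime → s.Prime → r ≠ s → r ≠ 2 → wt r + wt s ≤ n →
      ∃ g : alternatingGroup (Fin n), orderOf g = r * s := by
    intro r s hr hs hne hr2 h
    rw [wt_of_ne hr2] at h
    have hcop : Nat.Coprime r s := (Nat.coprime_primes hr hs).2 hne
    have hro : Odd r := hr.odd_of_ne_two hr2
    by_cases hs2 : s = 2
    · subst hs2
      rw [wt_two] at h
      obtain ⟨σ, hσ⟩ := (exists_with_cycleType_iff (Fin n) (m := {r, 2, 2})).2 ⟨by
        rw [Fintype.card_fin]
        simp only [Multiset.insert_eq_cons, Multiset.sum_cons, Multiset.sum_singleton]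
        omega, by
        intro a ha
        simp only [Multiset.insert_eq_cons, Multiset.mem_cons, Multiset.mem_singleton] at ha
        rcases ha with rfl | rfl | rfl
        · exact hr.two_le
        · exact le_rfl
        · exact le_rfl⟩
      refine ⟨⟨σ, ?_⟩, ?_⟩
      · rw [mem_alternatingGroup, sign_of_cycleType', hσ]
        simp only [Multiset.insert_eq_cons, Multiset.map_cons, Multiset.map_singleton, Multiset.prod_cons,
          Multiset.prod_singleton]
        rw [Odd.neg_one_pow hro]
        decide
      · rw [← Subgroup.orderOf_coe, ← lcm_cycleType, hσ]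
        simp only [Multiset.insert_eq_cons, Multiset.lcm_cons, Multiset.lcm_singleton]
        change Nat.lcm r (Nat.lcm 2 (normalize 2)) = r * 2
        rw [normalize_eq, Nat.lcm_self]
        exact hcop.lcm_eq_mul
    · rw [wt_of_ne hs2] at h
      have hso : Odd s := hs.odd_of_ne_two hs2
      obtain ⟨σ, hσ⟩ := (exists_with_cycleType_iff (Fin n) (m := {r, s})).2 ⟨by
        rw [Fintype.card_fin]
        simp only [Multiset.insert_eq_cons, Multiset.sum_cons, Multiset.sum_singleton]
        omega, by
        intro a ha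
        simp only [Multiset.insert_eq_cons, Multiset.mem_cons, Multiset.mem_singleton] at ha
        rcases ha with rfl | rfl
        · exact hr.two_le
        · exact hs.two_le⟩
      refine ⟨⟨σ, ?_⟩, ?_⟩
      · rw [mem_alternatingGroup, sign_of_cycleType', hσ]
        simp only [Multiset.insert_eq_cons, Multiset.map_cons, Multiset.map_singleton, Multiset.prod_cons,
          Multiset.prod_singleton]
        rw [Odd.neg_one_pow hro, Odd.neg_one_pow hso]
        decide
      · rw [← Subgroup.orderOf_coe, ← lcm_cycleType, hσ]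
        simp only [Multiset.insert_eq_cons, Multiset.lcm_cons, Multiset.lcm_singleton]
        change Nat.lcm r (normalize s) = r * s
        rw [normalize_eq]
        exact hcop.lcm_eq_mul
  by_cases hr2 : r = 2
  · obtain ⟨g, hg⟩ := key s r hs hr (Ne.symm hne) (fun h => hne (hr2.trans h.symm)) (by omega)
    exact ⟨g, by rw [hg, mul_comm]⟩
  · exact key r s hr hs hne hr2 h

theorem exists_iff {r s : ℕ} (hr : r.Prime) (hs : s.Prime) (hne : r ≠ s) :
    (∃ g : alternatingGroup (Fin n), orderOf g = r * s) ↔ wt r + wt s ≤ n :=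
  ⟨fun ⟨_, hg⟩ => wt_add_le hr hs hne hg, exists_of_wt hr hs hne⟩

/-- the order -/
theorem two_mul_card (hn : 2 ≤ n) : 2 * Nat.card (alternatingGroup (Fin n)) = n.factorial := by
  have : Nontrivial (Fin n) := Fin.nontrivial_iff_two_le.2 hn
  rw [two_mul_nat_card_alternatingGroup (α := Fin n), Nat.card_perm, Nat.card_fin]

theorem prime_dvd_iff (hn : 4 ≤ n) {s : ℕ} (hs : s.Prime) : s ∣ Nat.card (alternatingGroup (Fin n)) ↔ s ≤ n := by
  have h1 := two_mul_card (n := n) (by omega)
  constructor
  · intro h
    exact (hs.dvd_factorial).1 (h1 ▸ h.mul_left 2)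
  · intro h
    by_cases hs2 : s = 2
    · subst hs2
      have h2 : 2 * 2 ∣ 2 * Nat.card (alternatingGroup (Fin n)) := by
        rw [h1]
        exact (by decide : 2 * 2 ∣ Nat.factorial 4).trans (Nat.factorial_dvd_factorial hn)
      exact Nat.dvd_of_mul_dvd_mul_left (by norm_num) h2
    · have h2 : s ∣ 2 * Nat.card (alternatingGroup (Fin n)) := h1 ▸ (hs.dvd_factorial).2 h
      rcases hs.dvd_mul.1 h2 with h3 | h3
      · exact absurd ((Nat.prime_dvd_prime_iff_eq hs Nat.prime_two).1 h3) hs2
      · exact h3

end Cfsg.Agent.H418.AltAdj
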