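import Mathlib
import Cfsg.Agent.H418.AltAdj
import Cfsg.Agent.H418.Rule

/-!
# The prime graph of a group with the order and the degree pattern of an alternating group (helper418)

The prime graph of `A_n` is a threshold graph.  If `G` has the order and the degree pattern of `A_n`, then
* `coclique` : the primes `t` with `n < 2 * wt t` are pairwise non-adjacent in `G`;
* `top_nb` : for `p` prime with `p ≤ n ≤ p + 3` (`p ≥ 7`), the only possible neighbour of `p` in `G` is `3`, and then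
  `n = p + 3`.
-/

set_option autoImplicit false

namespace Cfsg.Agent.H418.AltGraph

open Cfsg.Agent.H418.AltAdj Cfsg.Agent.H418.Rule

universe u

/-- the primes up to `n` -/
def PP (n : ℕ) : Finset ℕ := (Finset.range (n + 1)).filter Nat.Prime

theorem mem_PP {n s : ℕ} : s ∈ PP n ↔ s.Prime ∧ s ≤ n := by
  unfold PP
  rw [Finset.mem_filter, Finset.mem_range, Nat.lt_succ_iff, and_comm]

open Classical in
/-- adjacency indicator -/
noncomputable def ind (X : Type u) [Group X] (r s : ℕ) : ℕ := if s ≠ r ∧ ∃ x : X, orderOf x = r * s then 1 else 0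

theorem ind_le (X : Type u) [Group X] (r s : ℕ) : ind X r s ≤ 1 := by
  unfold ind
  split_ifs <;> omega

theorem ind_symm (X : Type u) [Group X] (r s : ℕ) : ind X r s = ind X s r := by
  unfold ind
  congr 1
  rw [eq_iff_iff]
  constructor
  · rintro ⟨h1, x, hx⟩
    exact ⟨Ne.symm h1, x, by rw [hx, mul_comm]⟩
  · rintro ⟨h1, x, hx⟩
    exact ⟨Ne.symm h1, x, by rw [hx, mul_comm]⟩

theorem nb_ncard {X : Type u} [Group X] {n : ℕ} (hX : ∀ s : ℕ, s.Prime → (s ∣ Nat.card X ↔ s ≤ n)) (r : ℕ) :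
    (nb X r).ncard = ∑ s ∈ PP n, ind X r s := by
  classical
  have h1 : nb X r = ↑((PP n).filter fun s => s ≠ r ∧ ∃ x : X, orderOf x = r * s) := by
    ext s
    rw [Finset.mem_coe, Finset.mem_filter, mem_PP]
    constructor
    · rintro ⟨h1, h2, h3, h4⟩
      exact ⟨⟨h1, (hX s h1).1 h2⟩, h3, h4⟩
    · rintro ⟨⟨h1, h2⟩, h3, h4⟩
      exact ⟨h1, (hX s h1).2 h2, h3, h4⟩
  rw [h1, Set.ncard_coe_finset, Finset.card_filter]
  rfl

section

variable {n : ℕ} {G : Type u} [Group G] [Finite G]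

theorem coclique (hn : 4 ≤ n) (hcard : Nat.card G = Nat.card (alternatingGroup (Fin n)))
    (hD : ∀ r : ℕ, r.Prime → (nb G r).ncard = (nb (alternatingGroup (Fin n)) r).ncard)
    {r s : ℕ} (hr : r.Prime) (hs : s.Prime) (hrn : r ≤ n) (hsn : s ≤ n) (hne : r ≠ s) (h1 : n < 2 * wt r)
    (h2 : n < 2 * wt s) : ¬ ∃ x : G, orderOf x = r * s := by
  classical
  have hA : ∀ s : ℕ, s.Prime → (s ∣ Nat.card (alternatingGroup (Fin n)) ↔ s ≤ n) := fun s hs => prime_dvd_iff hn hs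
  have hG : ∀ s : ℕ, s.Prime → (s ∣ Nat.card G ↔ s ≤ n) := fun s hs => by rw [hcard]; exact hA s hs
  let K := (PP n).filter fun s => 2 * wt s ≤ n
  let T := (PP n).filter fun s => ¬ 2 * wt s ≤ n
  have hsplit : ∀ f : ℕ → ℕ, ∑ s ∈ PP n, f s = ∑ s ∈ K, f s + ∑ s ∈ T, f s := fun f =>
    (Finset.sum_filter_add_sum_filter_not (PP n) _ f).symm
  have hdeg : ∀ r, r.Prime → ∑ s ∈ PP n, ind G r s = ∑ s ∈ PP n, ind (alternatingGroup (Fin n)) r s := by
    intro r hr
    rw [← nb_ncard hG, ← nb_ncard hA]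
    exact hD r hr
  have hKp : ∀ s ∈ K, s.Prime ∧ s ≤ n ∧ 2 * wt s ≤ n := fun s hs => by
    have := Finset.mem_filter.1 hs
    exact ⟨(mem_PP.1 this.1).1, (mem_PP.1 this.1).2, this.2⟩
  have hTp : ∀ s ∈ T, s.Prime ∧ s ≤ n ∧ n < 2 * wt s := fun s hs => by
    have := Finset.mem_filter.1 hs
    exact ⟨(mem_PP.1 this.1).1, (mem_PP.1 this.1).2, not_le.1 this.2⟩
  -- the sums
  have eK : ∑ r ∈ K, ∑ s ∈ PP n, ind G r s = ∑ r ∈ K, ∑ s ∈ PP n, ind (alternatingGroup (Fin n)) r s :=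
    Finset.sum_congr rfl fun r hr => hdeg r (hKp r hr).1
  have eT : ∑ r ∈ T, ∑ s ∈ PP n, ind G r s = ∑ r ∈ T, ∑ s ∈ PP n, ind (alternatingGroup (Fin n)) r s :=
    Finset.sum_congr rfl fun r hr => hdeg r (hTp r hr).1
  simp only [hsplit] at eK eT
  rw [Finset.sum_add_distrib, Finset.sum_add_distrib] at eK eT
  have cG : ∑ r ∈ K, ∑ s ∈ T, ind G r s = ∑ r ∈ T, ∑ s ∈ K, ind G r s := by
    rw [Finset.sum_comm]
    exact Finset.sum_congr rfl fun _ _ => Finset.sum_congr rfl fun _ _ => ind_symm G _ _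
  have cA : ∑ r ∈ K, ∑ s ∈ T, ind (alternatingGroup (Fin n)) r s =
      ∑ r ∈ T, ∑ s ∈ K, ind (alternatingGroup (Fin n)) r s := by
    rw [Finset.sum_comm]
    exact Finset.sum_congr rfl fun _ _ => Finset.sum_congr rfl fun _ _ => ind_symm _ _ _
  have kk : ∑ r ∈ K, ∑ s ∈ K, ind G r s ≤ ∑ r ∈ K, ∑ s ∈ K, ind (alternatingGroup (Fin n)) r s := by
    apply Finset.sum_le_sum
    intro r hr
    apply Finset.sum_le_sum
    intro s hs
    by_cases h : s = r
    · unfold ind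
      rw [if_neg (fun h' => h'.1 h)]
      exact Nat.zero_le _
    · refine (ind_le G r s).trans ?_
      unfold ind
      rw [if_pos]
      refine ⟨h, exists_of_wt (hKp r hr).1 (hKp s hs).1 (Ne.symm h) ?_⟩
      have := (hKp r hr).2.2
      have := (hKp s hs).2.2
      omega
  have tt : ∑ r ∈ T, ∑ s ∈ T, ind (alternatingGroup (Fin n)) r s = 0 := by
    apply Finset.sum_eq_zero
    intro r hr
    apply Finset.sum_eq_zero
    intro s hs
    unfold ind
    rw [if_neg]
    rintro ⟨hne, x, hx⟩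
    have := wt_add_le (hTp r hr).1 (hTp s hs).1 (Ne.symm hne) hx
    have := (hTp r hr).2.2
    have := (hTp s hs).2.2
    omega
  have ttG : ∑ r ∈ T, ∑ s ∈ T, ind G r s = 0 := by omega
  have hrT : r ∈ T := Finset.mem_filter.2 ⟨mem_PP.2 ⟨hr, hrn⟩, not_le.2 h1⟩
  have hsT : s ∈ T := Finset.mem_filter.2 ⟨mem_PP.2 ⟨hs, hsn⟩, not_le.2 h2⟩
  have h3 := (Finset.sum_eq_zero_iff.1 ttG) r hrT
  have h4 := (Finset.sum_eq_zero_iff.1 h3) s hsT
  intro hx
  unfold ind at h4
  rw [if_pos ⟨Ne.symm hne, hx⟩] at h4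
  exact one_ne_zero h4

/-- the neighbours of the largest prime -/
theorem top_nb (hcard : Nat.card G = Nat.card (alternatingGroup (Fin n)))
    (hD : ∀ r : ℕ, r.Prime → (nb G r).ncard = (nb (alternatingGroup (Fin n)) r).ncard)
    {p : ℕ} (hp : p.Prime) (hp7 : 5 ≤ p) (hpn : p ≤ n) (hnp : n ≤ p + 3) (hmax : ∀ t : ℕ, t.Prime → t ≤ n → t ≤ p)
    {s : ℕ} (hs : s.Prime) (hne : s ≠ p) (hx : ∃ x : G, orderOf x = p * s) : s = 3 ∧ n = p + 3 := by
  classical
  have hn : 4 ≤ n := by omega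
  have hA : ∀ s : ℕ, s.Prime → (s ∣ Nat.card (alternatingGroup (Fin n)) ↔ s ≤ n) := fun s hs => prime_dvd_iff hn hs
  have hG : ∀ s : ℕ, s.Prime → (s ∣ Nat.card G ↔ s ≤ n) := fun s hs => by rw [hcard]; exact hA s hs
  have hsn : s ≤ n := by
    rw [← hG s hs]
    obtain ⟨x, hx⟩ := hx
    exact (Dvd.intro_left _ rfl : s ∣ p * s).trans (hx ▸ orderOf_dvd_natCard x)
  have hsG : s ∈ nb G p := ⟨hs, (hG s hs).2 hsn, hne, hx⟩
  have hp2 : p ≠ 2 := by omega
  have hsub : nb (alternatingGroup (Fin n)) p ⊆ if n = p + 3 then {3} else ∅ := by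
    rintro t ⟨ht, htn, htp, x, hx⟩
    have h1 := wt_add_le hp ht (Ne.symm htp) hx
    rw [wt_of_ne hp2] at h1
    have h2 := le_wt t
    have ht2 := ht.two_le
    by_cases h3 : t = 2
    · rw [h3, wt_two] at h1
      omega
    · have h4 : t = 3 := by omega
      rw [if_pos (by omega), h4]
      rfl
  by_cases h3 : n = p + 3
  · rw [if_pos h3] at hsub
    -- the degree of `3` is maximal
    have hA3 : nb (alternatingGroup (Fin n)) 3 = ↑((PP n).erase 3) := by
      ext t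
      rw [Finset.mem_coe, Finset.mem_erase, mem_PP]
      constructor
      · rintro ⟨h1, h2, h4, -⟩
        exact ⟨h4, h1, (hA t h1).1 h2⟩
      · rintro ⟨h4, h1, h2⟩
        refine ⟨h1, (hA t h1).2 h2, h4, exists_of_wt Nat.prime_three h1 (Ne.symm h4) ?_⟩
        rw [wt_of_ne (by norm_num : (3 : ℕ) ≠ 2)]
        by_cases ht2 : t = 2
        · rw [ht2, wt_two]
          omega
        · rw [wt_of_ne ht2]
          have := hmax t h1 h2
          omega
    have hG3 : nb G 3 ⊆ ↑((PP n).erase 3) := by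
      rintro t ⟨h1, h2, h4, -⟩
      rw [Finset.mem_coe, Finset.mem_erase, mem_PP]
      exact ⟨h4, h1, (hG t h1).1 h2⟩
    have h5 : nb G 3 = ↑((PP n).erase 3) := by
      apply Set.eq_of_subset_of_ncard_le hG3 _ (Finset.finite_toSet _)
      rw [← hA3, ← hD 3 Nat.prime_three]
    have h6 : p ∈ nb G 3 := by
      rw [h5, Finset.mem_coe, Finset.mem_erase, mem_PP]
      exact ⟨by omega, hp, hpn⟩
    obtain ⟨-, -, h7, x, hx⟩ := h6
    have h8 : 3 ∈ nb G p := ⟨Nat.prime_three, (hG 3 Nat.prime_three).2 (by omega), Ne.symm h7, x, by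
      rw [hx, mul_comm]⟩
    have h9 : (nb G p).ncard ≤ 1 := by
      rw [hD p hp, ← Set.ncard_singleton 3]
      exact Set.ncard_le_ncard hsub (Set.finite_singleton 3)
    rw [Set.ncard_le_one (nb_finite G p)] at h9
    exact ⟨h9 s hsG 3 h8, h3⟩
  · exfalso
    rw [if_neg h3] at hsub
    have h4 : nb (alternatingGroup (Fin n)) p = ∅ := Set.subset_empty_iff.1 hsub
    have h5 := hD p hp
    rw [h4, Set.ncard_empty, Set.ncard_eq_zero (nb_finite G p)] at h5
    rw [h5] at hsG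
    exact hsG

end

end Cfsg.Agent.H418.AltGraph
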