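import Mathlib
import Cfsg.Agent.H418.AltGraph

/-!
# The degree pattern of an alternating group determines its prime graph (helper418)

The prime graph of `A_n` is a threshold graph, so it is the only graph with its degrees.

* `nonadj` : if `G` has the order and the degree pattern of `A_n`, `n ≥ 4`, and `n < wt r + wt t`, then `G` has no
  element of order `r * t`.
* `adj` : if `wt r + wt t ≤ n`, then `G` has an element of order `r * t`.
-/

set_option autoImplicit false

namespace Cfsg.Agent.H418.Thresh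

open Cfsg.Agent.H418.AltAdj Cfsg.Agent.H418.Rule Cfsg.Agent.H418.AltGraph

universe u

variable {n : ℕ} {G : Type u} [Group G]

theorem nonadj [Finite G] (hn : 4 ≤ n) (hcard : Nat.card G = Nat.card (alternatingGroup (Fin n)))
    (hD : ∀ r : ℕ, r.Prime → (nb G r).ncard = (nb (alternatingGroup (Fin n)) r).ncard)
    {r t : ℕ} (hr : r.Prime) (ht : t.Prime) (hne : r ≠ t) (hlt : n < wt r + wt t) :
    ¬ ∃ x : G, orderOf x = r * t := by
  classical
  have hA : ∀ s : ℕ, s.Prime → (s ∣ Nat.card (alternatingGroup (Fin n)) ↔ s ≤ n) := fun s hs => prime_dvd_iff hn hs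
  have hG : ∀ s : ℕ, s.Prime → (s ∣ Nat.card G ↔ s ≤ n) := fun s hs => by rw [hcard]; exact hA s hs
  -- the symmetric form
  have key : ∀ r t : ℕ, r.Prime → t.Prime → r ≠ t → n < wt r + wt t → wt r ≤ wt t → r ≤ n → t ≤ n →
      ¬ ∃ x : G, orderOf x = r * t := by
    intro r t hr ht hne hlt hle hrn htn
    have htn' : wt t ≤ n := by
      by_cases h2 : t = 2
      · rw [h2, wt_two]
        exact hn
      · rw [wt_of_ne h2]
        exact htn
    obtain ⟨w, hw⟩ : ∃ w, w + wt t = n := ⟨n - wt t, by omega⟩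
    let K := (PP n).filter fun s => wt s ≤ w
    let L := (PP n).filter fun s => ¬ wt s ≤ w
    let B := L.filter fun s => n ≤ wt s + w
    let R := L.filter fun s => ¬ n ≤ wt s + w
    have hsplit : ∀ f : ℕ → ℕ, ∑ s ∈ PP n, f s = ∑ s ∈ K, f s + (∑ s ∈ B, f s + ∑ s ∈ R, f s) := fun f => by
      rw [Finset.sum_filter_add_sum_filter_not L, Finset.sum_filter_add_sum_filter_not (PP n)]
    have hdeg : ∀ r, r.Prime → ∑ s ∈ PP n, ind G r s = ∑ s ∈ PP n, ind (alternatingGroup (Fin n)) r s := by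
      intro r hr
      rw [← nb_ncard hG, ← nb_ncard hA]
      exact hD r hr
    have hKp : ∀ s ∈ K, s.Prime ∧ wt s ≤ w := fun s hs => by
      have := Finset.mem_filter.1 hs
      exact ⟨(mem_PP.1 this.1).1, this.2⟩
    have hLp : ∀ s ∈ L, s.Prime ∧ w < wt s := fun s hs => by
      have := Finset.mem_filter.1 hs
      exact ⟨(mem_PP.1 this.1).1, not_le.1 this.2⟩
    have hBp : ∀ s ∈ B, s.Prime ∧ w < wt s ∧ n ≤ wt s + w := fun s hs => by
      have := Finset.mem_filter.1 hs
      exact ⟨(hLp s this.1).1, (hLp s this.1).2, this.2⟩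
    have hRp : ∀ s ∈ R, s.Prime ∧ w < wt s ∧ wt s + w < n := fun s hs => by
      have := Finset.mem_filter.1 hs
      exact ⟨(hLp s this.1).1, (hLp s this.1).2, not_le.1 this.2⟩
    -- the sums
    have eK : ∑ r ∈ K, ∑ s ∈ PP n, ind G r s = ∑ r ∈ K, ∑ s ∈ PP n, ind (alternatingGroup (Fin n)) r s :=
      Finset.sum_congr rfl fun r hr => hdeg r (hKp r hr).1
    have eB : ∑ r ∈ B, ∑ s ∈ PP n, ind G r s = ∑ r ∈ B, ∑ s ∈ PP n, ind (alternatingGroup (Fin n)) r s :=
      Finset.sum_congr rfl fun r hr => hdeg r (hBp r hr).1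
    simp only [hsplit] at eK eB
    simp only [Finset.sum_add_distrib] at eK eB
    have cG : ∑ r ∈ K, ∑ s ∈ B, ind G r s = ∑ r ∈ B, ∑ s ∈ K, ind G r s := by
      rw [Finset.sum_comm]
      exact Finset.sum_congr rfl fun _ _ => Finset.sum_congr rfl fun _ _ => ind_symm G _ _
    have cA : ∑ r ∈ K, ∑ s ∈ B, ind (alternatingGroup (Fin n)) r s =
        ∑ r ∈ B, ∑ s ∈ K, ind (alternatingGroup (Fin n)) r s := by
      rw [Finset.sum_comm]
      exact Finset.sum_congr rfl fun _ _ => Finset.sum_congr rfl fun _ _ => ind_symm _ _ _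
    -- comparison where all the pairs are adjacent in the alternating group
    have hcmp : ∀ r ∈ K, ∀ s ∈ PP n, wt r + wt s ≤ n → ind G r s ≤ ind (alternatingGroup (Fin n)) r s := by
      intro r hr s hs h1
      by_cases h : s = r
      · unfold ind
        rw [if_neg (fun h' => h'.1 h)]
        exact Nat.zero_le _
      · refine (ind_le G r s).trans ?_
        unfold ind
        rw [if_pos]
        exact ⟨h, exists_of_wt (hKp r hr).1 (mem_PP.1 hs).1 (Ne.symm h) h1⟩
    have kk : ∑ r ∈ K, ∑ s ∈ K, ind G r s ≤ ∑ r ∈ K, ∑ s ∈ K, ind (alternatingGroup (Fin n)) r s := by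
      apply Finset.sum_le_sum
      intro r hr
      apply Finset.sum_le_sum
      intro s hs
      refine hcmp r hr s (Finset.mem_filter.1 hs).1 ?_
      have := (hKp r hr).2
      have := (hKp s hs).2
      omega
    have kr : ∑ r ∈ K, ∑ s ∈ R, ind G r s ≤ ∑ r ∈ K, ∑ s ∈ R, ind (alternatingGroup (Fin n)) r s := by
      apply Finset.sum_le_sum
      intro r hr
      apply Finset.sum_le_sum
      intro s hs
      refine hcmp r hr s (Finset.mem_filter.1 (Finset.mem_filter.1 hs).1).1 ?_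
      have := (hKp r hr).2
      have := (hRp s hs).2.2
      omega
    have hzero : ∀ r ∈ B, ∀ s ∈ L, ind (alternatingGroup (Fin n)) r s = 0 := by
      intro r hr s hs
      unfold ind
      rw [if_neg]
      rintro ⟨hne, x, hx⟩
      have := wt_add_le (hBp r hr).1 (hLp s hs).1 (Ne.symm hne) hx
      have := (hBp r hr).2.2
      have := (hLp s hs).2
      omega
    have bb : ∑ r ∈ B, ∑ s ∈ B, ind (alternatingGroup (Fin n)) r s = 0 :=
      Finset.sum_eq_zero fun r hr => Finset.sum_eq_zero fun s hs => hzero r hr s (Finset.mem_filter.1 hs).1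
    have br : ∑ r ∈ B, ∑ s ∈ R, ind (alternatingGroup (Fin n)) r s = 0 :=
      Finset.sum_eq_zero fun r hr => Finset.sum_eq_zero fun s hs => hzero r hr s (Finset.mem_filter.1 hs).1
    have bbG : ∑ r ∈ B, ∑ s ∈ B, ind G r s = 0 := by omega
    have brG : ∑ r ∈ B, ∑ s ∈ R, ind G r s = 0 := by omega
    have htB : t ∈ B := by
      refine Finset.mem_filter.2 ⟨Finset.mem_filter.2 ⟨mem_PP.2 ⟨ht, htn⟩, ?_⟩, ?_⟩ <;> omega
    have hrL : r ∈ L := Finset.mem_filter.2 ⟨mem_PP.2 ⟨hr, hrn⟩, by omega⟩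
    rintro ⟨x, hx⟩
    have h5 : ind G t r = 0 := by
      by_cases h6 : n ≤ wt r + w
      · have hrB : r ∈ B := Finset.mem_filter.2 ⟨hrL, h6⟩
        exact (Finset.sum_eq_zero_iff.1 ((Finset.sum_eq_zero_iff.1 bbG) t htB)) r hrB
      · have hrR : r ∈ R := Finset.mem_filter.2 ⟨hrL, h6⟩
        exact (Finset.sum_eq_zero_iff.1 ((Finset.sum_eq_zero_iff.1 brG) t htB)) r hrR
    unfold ind at h5
    rw [if_pos ⟨hne, x, by rw [hx, mul_comm]⟩] at h5
    exact one_ne_zero h5
  rintro ⟨x, hx⟩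
  have hrn : r ≤ n := (hG r hr).1 ((Dvd.intro _ rfl : r ∣ r * t).trans (hx ▸ orderOf_dvd_natCard x))
  have htn : t ≤ n := (hG t ht).1 ((Dvd.intro_left _ rfl : t ∣ r * t).trans (hx ▸ orderOf_dvd_natCard x))
  rcases le_total (wt r) (wt t) with h | h
  · exact key r t hr ht hne hlt h hrn htn ⟨x, hx⟩
  · exact key t r ht hr (Ne.symm hne) (by omega) h htn hrn ⟨x, by rw [hx, mul_comm]⟩

/-- the other adjacencies -/
theorem adj [Finite G] (hn : 4 ≤ n) (hcard : Nat.card G = Nat.card (alternatingGroup (Fin n)))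
    (hD : ∀ r : ℕ, r.Prime → (nb G r).ncard = (nb (alternatingGroup (Fin n)) r).ncard)
    {r t : ℕ} (hr : r.Prime) (ht : t.Prime) (hne : r ≠ t) (hle : wt r + wt t ≤ n) :
    ∃ x : G, orderOf x = r * t := by
  have hA : ∀ s : ℕ, s.Prime → (s ∣ Nat.card (alternatingGroup (Fin n)) ↔ s ≤ n) := fun s hs => prime_dvd_iff hn hs
  have hG : ∀ s : ℕ, s.Prime → (s ∣ Nat.card G ↔ s ≤ n) := fun s hs => by rw [hcard]; exact hA s hs
  have hsub : nb G r ⊆ nb (alternatingGroup (Fin n)) r := by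
    rintro s ⟨hs, hsG, hsr, hx⟩
    refine ⟨hs, hcard ▸ hsG, hsr, ?_⟩
    by_contra hcon
    have h1 : ¬ wt r + wt s ≤ n := fun h => hcon (exists_of_wt hr hs (Ne.symm hsr) h)
    exact nonadj hn hcard hD hr hs (Ne.symm hsr) (not_le.1 h1) hx
  have h1 : nb G r = nb (alternatingGroup (Fin n)) r :=
    Set.eq_of_subset_of_ncard_le hsub (hD r hr).ge (nb_finite _ r)
  have htn : t ≤ n := by
    have := le_wt t
    omega
  have h2 : t ∈ nb (alternatingGroup (Fin n)) r := ⟨ht, (hA t ht).2 htn, Ne.symm hne, exists_of_wt hr ht hne hle⟩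
  rw [← h1] at h2
  exact h2.2.2.2

end Cfsg.Agent.H418.Thresh
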