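import Mathlib
import Cfsg.Agent.H418.Thresh
import Cfsg.Agent.H418.AltFinal
import Cfsg.Agent.H357.Main
import Cfsg.Agent.H367.AltSmall
import Cfsg.Agent.S0819

/-!
# Alternating groups of degree near a prime by the order and the degree pattern (helper418)
-/

set_option autoImplicit false

namespace Cfsg.Agent.H418.AltMain

open Cfsg Cfsg.Agent.OrdDiv Cfsg.Agent.H418.Rule Cfsg.Agent.H418.AltAdj Cfsg.Agent.H357.Reduce

universe u

section

variable {n : ℕ} {G : Type u} [Group G] [Finite G]

omit [Group G] [Finite G] in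
theorem card_eq (hn : 5 ≤ n) (hcard : Nat.card G = Nat.card (alternatingGroup (Fin n))) :
    2 * Nat.card G = n.factorial := by
  rw [hcard]
  exact two_mul_card (by omega)

theorem fact_odd (hG : 2 * Nat.card G = n.factorial) {s : ℕ} (hs2 : s ≠ 2) :
    (Nat.card G).factorization s = n.factorial.factorization s := by
  rw [← hG, Nat.factorization_mul (by norm_num) Nat.card_pos.ne', Finsupp.add_apply,
    Nat.Prime.factorization Nat.prime_two, Finsupp.single_apply, if_neg (Ne.symm hs2), zero_add]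

theorem fact_two (hG : 2 * Nat.card G = n.factorial) :
    (Nat.card G).factorization 2 = n.factorial.factorization 2 - 1 := by
  rw [← hG, Nat.factorization_mul (by norm_num) Nat.card_pos.ne', Finsupp.add_apply,
    Nat.Prime.factorization Nat.prime_two, Finsupp.single_apply, if_pos rfl]
  omega

theorem hyp (hn : 5 ≤ n) (hcard : Nat.card G = Nat.card (alternatingGroup (Fin n)))
    (hD : ∀ r : ℕ, r.Prime → (nb G r).ncard = (nb (alternatingGroup (Fin n)) r).ncard) : Hyp G n where
  dvd := by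
    rw [← card_eq hn hcard]
    exact Nat.dvd_mul_left _ _
  odd p _ hp2 := fact_odd (card_eq hn hcard) hp2
  adj r t hr ht hrt hlt := by
    intro g hg
    have h1 := le_wt r
    have h2 := le_wt t
    exact Thresh.nonadj (by omega) hcard hD hr ht hrt (by omega) ⟨g, hg⟩

/-- a prime of `(n/2, n]` divides `|V|` -/
theorem dvd_V {p t : ℕ} (hn : 5 ≤ n) (hG : 2 * Nat.card G = n.factorial) (hp : p.Prime) (hpn : p ≤ n)
    (hmax : ∀ t : ℕ, t.Prime → t ≤ n → t ≤ p) (hpG : ¬ p ^ 2 ∣ Nat.card G) (N : Subgroup G) [N.Normal]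
    (hpN : ¬ p ∣ Nat.card N) (V : Subgroup (G ⧸ N)) [V.Normal] (hpV : p ∣ Nat.card V) (ht : t.Prime) (h1 : n < 2 * t)
    (h2 : t ≤ n) (hadj : t ≠ p → ¬ ∃ z : G, orderOf z = p * t) : t ∣ Nat.card V := by
  by_cases htp : t = p
  · rw [htp]
    exact hpV
  by_contra hd
  have hp5 : 5 ≤ p := hmax 5 (by norm_num) hn
  have ht3 : 3 ≤ t := by omega
  have htlt : t < p := lt_of_le_of_ne (hmax t ht h2) htp
  obtain ⟨a, ha⟩ := hp.odd_of_ne_two (by omega)
  obtain ⟨b, hb⟩ := ht.odd_of_ne_two (by omega)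
  have e1 : (Nat.card V).factorization t = 0 := Nat.factorization_eq_zero_of_not_dvd hd
  have e2 : (p - 1).factorization t = 0 := by
    apply Nat.factorization_eq_zero_of_not_dvd
    rintro ⟨k, hk⟩
    have hk2 : k < 2 := by
      by_contra h
      have : t * 2 ≤ t * k := Nat.mul_le_mul_left t (by omega)
      omega
    interval_cases k <;> omega
  have e3 : (Nat.card G).factorization t = 1 := by
    rw [fact_odd hG (by omega)]
    exact Cfsg.Agent.H363.AltPrimes.factorization_factorial ht h2 h1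
  refine hadj htp (Rule.adj hp ht htp hpG N hpN V hpV (by omega) ?_)
  intro i hi hi2 hdvd
  have hi1 : i = 1 := by omega
  rw [hi1, pow_one] at hdvd
  have := Nat.le_of_dvd (by omega) hdvd
  omega

theorem not_sq {p : ℕ} (hG : 2 * Nat.card G = n.factorial) (hp : p.Prime) (hp2 : p ≠ 2) (hpn : p ≤ n)
    (h : n < 2 * p) : ¬ p ^ 2 ∣ Nat.card G := by
  rw [hp.pow_dvd_iff_le_factorization Nat.card_pos.ne', fact_odd hG hp2,
    Cfsg.Agent.H363.AltPrimes.factorization_factorial hp hpn h]
  omega

/-- the simple section -/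
def Sec (G : Type u) [Group G] (n p : ℕ) : Prop :=
  ∃ (N : Subgroup G) (_ : N.Normal) (V : Subgroup (G ⧸ N)), V.Normal ∧ IsSimpleGroup V ∧ ¬ p ∣ Nat.card N ∧
    p ∣ Nat.card V ∧ (∀ t : ℕ, t.Prime → n < 2 * t → t ≤ n → t ∣ Nat.card V) ∧
      ((∃ m, m ≤ n ∧ 2 * Nat.card V = m.factorial ∧ Nonempty (V ≃* alternatingGroup (Fin m))) ∨
        (n = 8 ∧ ∃ (F : Type) (_ : Field F) (_ : Fintype F), Fintype.card F = 4 ∧
          Nonempty (V ≃* Matrix.ProjectiveSpecialLinearGroup (Fin 3) F)))

theorem sec_large (K : OrderTable.{u}) (hS : ∀ (S : Type u) [Group S] [Finite S] [IsSimpleGroup S], IsKnownSimple' S)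
    (hn : 13 ≤ n) {p : ℕ} (hp : p.Prime) (hpn : p ≤ n) (hnp : n ≤ p + 3)
    (hcard : Nat.card G = Nat.card (alternatingGroup (Fin n)))
    (hD : ∀ r : ℕ, r.Prime → (nb G r).ncard = (nb (alternatingGroup (Fin n)) r).ncard) : Sec G n p := by
  have hG := card_eq (by omega) hcard
  have h := hyp (by omega) hcard hD
  obtain ⟨N, hN, M, D⟩ := exists_data (by omega) h
  have := D.simple
  obtain ⟨m, ⟨e⟩⟩ := Cfsg.Agent.H357.Main.exists_alt K D h hn (hS M)
  have hm := Cfsg.Agent.H357.Main.two_mul_card D.nonab e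
  have hmn : m ≤ n := by
    by_contra hlt
    have h1 : n.factorial < m.factorial := (Nat.factorial_lt (by omega)).2 (by omega)
    have h2 : m.factorial ∣ n.factorial := by
      rw [← hm, ← hG]
      exact Nat.mul_dvd_mul_left 2 D.card_dvd
    have := Nat.le_of_dvd n.factorial_pos h2
    omega
  refine ⟨N, hN, M, D.normal, D.simple, ?_, D.primes p hp (by omega) hpn, D.primes, Or.inl ⟨m, hmn, hm, ⟨e⟩⟩⟩
  intro hd
  have h1 := (hp.dvd_iff_one_le_factorization Nat.card_pos.ne').1 hd
  rw [(D.fact_large h (by omega) hp (by omega) hpn).2.1] at h1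
  omega

theorem sec_small (K : OrderTable.{u}) (hS : ∀ (S : Type u) [Group S] [Finite S] [IsSimpleGroup S], IsKnownSimple' S)
    (hn : 5 ≤ n) (hn12 : n ≤ 12) (hn10 : n ≠ 10) {p : ℕ} (hp : p.Prime) (hpn : p ≤ n) (hnp : n ≤ p + 3)
    (hmax : ∀ t : ℕ, t.Prime → t ≤ n → t ≤ p)
    (hcard : Nat.card G = Nat.card (alternatingGroup (Fin n)))
    (hD : ∀ r : ℕ, r.Prime → (nb G r).ncard = (nb (alternatingGroup (Fin n)) r).ncard) : Sec G n p := by
  classical
  have hG := card_eq hn hcard
  have hp5 : 5 ≤ p := hmax 5 (by norm_num) hn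
  have hpG := not_sq hG hp (by omega) hpn (by omega)
  have hnon : ∀ s : ℕ, s.Prime → s ≠ p → n < wt s + p → ¬ ∃ z : G, orderOf z = p * s := by
    intro s hs hsp hlt
    refine Thresh.nonadj (by omega) hcard hD hp hs (Ne.symm hsp) ?_
    rw [wt_of_ne (show p ≠ 2 by omega)]
    omega
  have hpG1 : p ∣ Nat.card G := by
    rw [hcard]
    exact (prime_dvd_iff (by omega) hp).2 hpn
  obtain ⟨N, hN, hpN, -, V, hV, hVs, hpV⟩ := ChiefP.exists_chief hp (G := G) hpG1 hpG
  have hT : ∀ t : ℕ, t.Prime → n < 2 * t → t ≤ n → t ∣ Nat.card V := by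
    intro t ht h1 h2
    refine dvd_V hn hG hp hpn hmax hpG N hpN V hpV ht h1 h2 (fun htp => hnon t ht htp ?_)
    have := le_wt t
    omega
  have hna : ¬ ∀ a b : V, a * b = b * a := by
    intro hc
    have hVp : Nat.card V = p := by
      let _ : CommGroup V := { (inferInstance : Group V) with mul_comm := hc }
      have h3 : (Nat.card V).Prime := IsSimpleGroup.prime_card
      exact ((Nat.prime_dvd_prime_iff_eq hp h3).1 hpV).symm
    rcases Nat.lt_or_ge n 7 with h7 | h7
    · -- `n = 5`, `6`, `p = 5`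
      have hp5' : p = 5 := by
        have h6 : p ≠ 6 := by
          rintro rfl
          exact absurd hp (by norm_num)
        omega
      subst hp5'
      have e1 : (Nat.card V).factorization 3 = 0 := by
        rw [hVp]
        exact Nat.factorization_eq_zero_of_not_dvd (by norm_num)
      have e2 : (5 - 1).factorization 3 = 0 := Nat.factorization_eq_zero_of_not_dvd (by norm_num)
      have e3 : (Nat.card G).factorization 3 = n.factorial.factorization 3 := fact_odd hG (by norm_num)
      have e4 : 1 ≤ n.factorial.factorization 3 :=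
        (Nat.prime_three.dvd_iff_one_le_factorization n.factorial_ne_zero).1 ((Nat.prime_three.dvd_factorial).2 (by omega))
      have e5 : n.factorial.factorization 3 < 3 := by
        have : ¬ 3 ^ 3 ∣ n.factorial := by
          interval_cases n <;> decide
        have := (Nat.prime_three.pow_dvd_iff_le_factorization n.factorial_ne_zero).not.1 this
        omega
      refine hnon 3 Nat.prime_three (by norm_num) (by rw [wt_of_ne (by norm_num)]; omega)
        (Rule.adj hp Nat.prime_three (by norm_num) hpG N hpN V hpV (by omega) ?_)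
      intro i hi hi2
      have hi3 : i < 3 := by omega
      interval_cases i <;> decide
    · obtain ⟨t, ht, h1, h2, h3⟩ : ∃ t : ℕ, t.Prime ∧ n < 2 * t ∧ t ≤ n ∧ t < p := by
        rcases Nat.lt_or_ge n 10 with h | h
        · exact ⟨5, by norm_num, by omega, by omega, by
            have := hmax 7 (by norm_num) h7
            omega⟩
        · exact ⟨7, by norm_num, by omega, by omega, by
            have := hmax 11 (by norm_num) (by omega)
            omega⟩
      have h4 := hT t ht h1 h2
      rw [hVp] at h4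
      have := (Nat.prime_dvd_prime_iff_eq ht hp).1 h4
      omega
  have hVd : Nat.card V ∣ Nat.card G :=
    (Dvd.intro _ rfl : Nat.card V ∣ Nat.card V * Nat.card N).trans (ChiefP.card_dvd_quot N V)
  have hVd' : Nat.card V ∣ n.factorial := by
    rw [← hG]
    exact hVd.mul_left 2
  -- the inequality for the primes not adjacent to `p`
  have hX : ∀ s, s.Prime → n < p + wt s → (∀ b, 1 ≤ b → b ≤ (Nat.card G).factorization s → ¬ p ∣ s ^ b - 1) →
      (Nat.card G).factorization s ≤ (Nat.card V).factorization s + (p - 1).factorization s := by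
    intro s hs hlt hb
    by_cases hsp : s = p
    · subst hsp
      have h1 := (hs.dvd_iff_one_le_factorization Nat.card_pos.ne').1 hpV
      have h2 : (Nat.card G).factorization s = 1 := by
        rw [fact_odd hG (by omega)]
        exact Cfsg.Agent.H363.AltPrimes.factorization_factorial hs hpn (by omega)
      omega
    · by_contra hcon
      refine hnon s hs hsp (by omega) (Rule.adj hp hs hsp hpG N hpN V hpV (by omega) ?_)
      intro i hi hi2
      exact hb i hi (by omega)
  have hres := Cfsg.Agent.H367.AltSmall.main K (hS V) hna (n := n) (p := p) (Or.inl ⟨hn, by omega⟩) hp hpn hmax hpV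
    hVd' (by
      intro s hs hs2 hlt hb
      have h1 := fact_odd hG hs2
      rw [← h1] at hb ⊢
      exact hX s hs (by rw [wt_of_ne hs2]; omega) hb) (by
      intro hlt hb
      have h1 := fact_two hG
      rw [← h1] at hb ⊢
      exact hX 2 Nat.prime_two (by rw [wt_two]; omega) hb)
  refine ⟨N, hN, V, hV, hVs, hpN, hpV, hT, ?_⟩
  rcases hres with ⟨m, hpm, hmn, ⟨e⟩⟩ | ⟨h8, h⟩ | ⟨h10, -⟩
  · left
    refine ⟨m, hmn, ?_, ⟨e⟩⟩
    rw [Nat.card_congr e.toEquiv]
    exact two_mul_card (by omega)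
  · exact Or.inr ⟨h8, h⟩
  · exact absurd h10 hn10

theorem main (K : OrderTable.{u}) (hS : ∀ (S : Type u) [Group S] [Finite S] [IsSimpleGroup S], IsKnownSimple' S)
    (hn : 5 ≤ n) (hn10 : n ≠ 10) (hp : ∃ p : ℕ, p.Prime ∧ p ≤ n ∧ n ≤ p + 3)
    (hcard : Nat.card G = Nat.card (alternatingGroup (Fin n)))
    (hD : ∀ r : ℕ, r.Prime → (nb G r).ncard = (nb (alternatingGroup (Fin n)) r).ncard) :
    Nonempty (G ≃* alternatingGroup (Fin n)) := by
  classical
  have hG := card_eq hn hcard
  -- the largest prime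
  obtain ⟨p, hp, hpn, hmax⟩ : ∃ p : ℕ, p.Prime ∧ p ≤ n ∧ ∀ t : ℕ, t.Prime → t ≤ n → t ≤ p := by
    have h1 : ((Finset.range (n + 1)).filter Nat.Prime).Nonempty :=
      ⟨5, Finset.mem_filter.2 ⟨Finset.mem_range.2 (by omega), by norm_num⟩⟩
    refine ⟨((Finset.range (n + 1)).filter Nat.Prime).max' h1, ?_, ?_, ?_⟩
    · exact (Finset.mem_filter.1 (Finset.max'_mem _ h1)).2
    · have := Finset.mem_range.1 (Finset.mem_filter.1 (Finset.max'_mem _ h1)).1
      omega
    · intro t ht htn
      exact Finset.le_max' _ t (Finset.mem_filter.2 ⟨Finset.mem_range.2 (by omega), ht⟩)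
  have hnp : n ≤ p + 3 := by
    obtain ⟨q, hq, hqn, hnq⟩ := ‹∃ p : ℕ, p.Prime ∧ p ≤ n ∧ n ≤ p + 3›
    have := hmax q hq hqn
    omega
  have hp5 : 5 ≤ p := hmax 5 (by norm_num) hn
  have hpG := not_sq hG hp (by omega) hpn (by omega)
  have hnon : ∀ s : ℕ, s.Prime → s ≠ p → n < wt s + p → ¬ ∃ z : G, orderOf z = p * s := by
    intro s hs hsp hlt
    refine Thresh.nonadj (by omega) hcard hD hp hs (Ne.symm hsp) ?_
    rw [wt_of_ne (show p ≠ 2 by omega)]
    omega
  have hsec : Sec G n p := by
    rcases Nat.lt_or_ge n 13 with h | h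
    · exact sec_small K hS hn (by omega) hn10 hp hpn hnp hmax hcard hD
    · exact sec_large K hS h hp hpn hnp hcard hD
  obtain ⟨N, hN, V, hV, hVs, hpN, hpV, hT, h⟩ := hsec
  rcases h with ⟨m, hmn, hm, ⟨e⟩⟩ | ⟨h8, F, i1, i2, hF, ⟨e⟩⟩
  · have hmn' : m = n := AltFinal.m_eq hn hp hpn hnp hmax hG hnon hpG N V hm hpV hT hmn
    subst hmn'
    obtain ⟨e'⟩ := ChiefP.equiv_of_card N V (by omega)
    exact ⟨e'.trans e⟩
  · exfalso
    subst h8
    obtain ⟨x, hx⟩ := Thresh.adj (by omega) hcard hD Nat.prime_three (show Nat.Prime 5 by norm_num) (by norm_num)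
      (by rw [wt_of_ne (by norm_num), wt_of_ne (by norm_num)])
    have hVG : Nat.card V ∣ Nat.card G :=
      (Dvd.intro _ rfl : Nat.card V ∣ Nat.card V * Nat.card N).trans (ChiefP.card_dvd_quot N V)
    have hc8 : Nat.card G = 20160 := by
      have h1 : Nat.factorial 8 = 40320 := by decide
      omega
    have hVc : Nat.card V = 20160 := by
      rw [Nat.card_congr e.toEquiv]
      have h1 := Cfsg.Agent.S0243.result (F := F) hF 3 (by norm_num)
      have h2 : Nat.gcd 3 (4 - 1) = 3 := by decide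
      rw [h2, Fin.prod_univ_three] at h1
      simp only [Fin.val_zero, Fin.val_one, Fin.val_two] at h1
      omega
    obtain ⟨e'⟩ := ChiefP.equiv_of_card N V (by omega)
    refine Cfsg.Agent.S0819.result hF (e (e' x)) ?_
    rw [MulEquiv.orderOf_eq, MulEquiv.orderOf_eq, hx]

end

end Cfsg.Agent.H418.AltMain
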