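import Mathlib
import Cfsg.Agent.H418.Rule

/-!
# The deficit lemma (helper418)

`G` finite, `p ∥ |G|`, `N` a normal `p'`-subgroup, `V` simple and normal in `G ⧸ N` with `p ∣ |V|`, `s ≠ p` a prime such
that `G` has no element of order `p * s`.

* `deficit` : if `v_s |V| + v_s (p - 1) < v_s |G|`, then `s ∣ |N|`, and every prime `t ≠ s` dividing `|V|` divides
  `s ^ j - 1` for some `1 ≤ j ≤ v_s |N|`.
-/

set_option autoImplicit false

namespace Cfsg.Agent.H418.Deficit

universe u

open Cfsg.Agent.H418.Rule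

/-- an automorphism of prime order `t` of a group of order `s ^ i` -/
theorem dvd_of_aut {S : Type u} [Group S] [Finite S] {s t i : ℕ} (hs : s.Prime) (ht : t.Prime) (hne : t ≠ s)
    (hS : Nat.card S = s ^ i) (α : MulAut S) (hα : orderOf α = t) : ∃ j, 1 ≤ j ∧ j ≤ i ∧ t ∣ s ^ j - 1 := by
  classical
  have htF : Fact t.Prime := ⟨ht⟩
  let F : Subgroup S := (α.toMonoidHom).eqLocus (MonoidHom.id S)
  have hmem : ∀ x : S, x ∈ F ↔ α x = x := fun x => Iff.rfl
  have hP : IsPGroup t (Subgroup.zpowers α) := by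
    apply IsPGroup.of_card (n := 1)
    rw [Nat.card_zpowers, hα, pow_one]
  have h1 := hP.card_modEq_card_fixedPoints S
  have h2 : MulAction.fixedPoints (Subgroup.zpowers α) S = (F : Set S) := by
    ext x
    rw [MulAction.mem_fixedPoints, SetLike.mem_coe, hmem]
    constructor
    · intro h
      exact h ⟨α, Subgroup.mem_zpowers α⟩
    · rintro h ⟨g, hg⟩
      change g x = x
      obtain ⟨k, rfl⟩ := Subgroup.mem_zpowers_iff.1 hg
      have h3 : α ∈ MulAction.stabilizer (MulAut S) x := h
      exact Subgroup.zpow_mem _ h3 k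
  rw [h2] at h1
  change Nat.card S ≡ Nat.card F [MOD t] at h1
  have h3 : Nat.card F ∣ s ^ i := hS ▸ Subgroup.card_subgroup_dvd_card F
  obtain ⟨k, hk, hkF⟩ := (Nat.dvd_prime_pow hs).1 h3
  have h4 : k ≠ i := by
    rintro rfl
    have h5 : F = ⊤ := Subgroup.eq_top_of_card_eq F (by rw [hkF, hS])
    have h6 : α = 1 := by
      ext x
      have : x ∈ F := by rw [h5]; exact Subgroup.mem_top x
      exact (hmem x).1 this
    rw [h6, orderOf_one] at hα
    exact ht.one_lt.ne hα
  refine ⟨i - k, by omega, by omega, ?_⟩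
  rw [hS, hkF] at h1
  have h5 : t ∣ s ^ i - s ^ k := (Nat.modEq_iff_dvd' (Nat.pow_le_pow_right hs.pos hk)).1 h1.symm
  have h6 : s ^ i - s ^ k = s ^ k * (s ^ (i - k) - 1) := by
    rw [Nat.mul_sub, mul_one, ← pow_add, Nat.add_sub_cancel' hk]
  rw [h6] at h5
  rcases ht.dvd_mul.1 h5 with h7 | h7
  · exact absurd ((Nat.prime_dvd_prime_iff_eq ht hs).1 (ht.dvd_of_dvd_pow h7)) hne
  · exact h7

/-- **the deficit lemma** -/
theorem deficit {G : Type u} [Group G] [Finite G] {p s : ℕ} (hp : p.Prime) (hs : s.Prime) (hne : s ≠ p)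
    (hpG : ¬ p ^ 2 ∣ Nat.card G) (N : Subgroup G) [N.Normal]
    (V : Subgroup (G ⧸ N)) [V.Normal] [IsSimpleGroup V] (hpV : p ∣ Nat.card V)
    (hadj : ¬ ∃ z : G, orderOf z = p * s)
    (hb : (Nat.card V).factorization s + (p - 1).factorization s < (Nat.card G).factorization s) :
    s ∣ Nat.card N ∧ ∀ t : ℕ, t.Prime → t ≠ s → t ∣ Nat.card V →
      ∃ j, 1 ≤ j ∧ j ≤ (Nat.card N).factorization s ∧ t ∣ s ^ j - 1 := by
  classical
  have hpF : Fact p.Prime := ⟨hp⟩
  have hsF : Fact s.Prime := ⟨hs⟩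
  have hcard := Subgroup.card_eq_card_quotient_mul_card_subgroup N
  have hfac : (Nat.card G).factorization s = (Nat.card (G ⧸ N)).factorization s + (Nat.card N).factorization s := by
    rw [hcard, Nat.factorization_mul Nat.card_pos.ne' Nat.card_pos.ne']
    rfl
  have hsN : s ∣ Nat.card N := by
    by_contra hsN
    have h1 : (Nat.card N).factorization s = 0 := Nat.factorization_eq_zero_of_not_dvd hsN
    obtain ⟨z, hz⟩ := adj_quot hp hs hne V hpV
      (fun h => hpG (h.trans (by rw [hcard]; exact Dvd.intro _ rfl))) (by omega)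
    obtain ⟨w, hw⟩ := exists_order_of_quot N z
    exact hadj ⟨w, hw.trans hz⟩
  refine ⟨hsN, fun t ht hts htV => ?_⟩
  have htF : Fact t.Prime := ⟨ht⟩
  have S : Sylow s N := default
  have hSc : Nat.card S = s ^ (Nat.card N).factorization s := Sylow.card_eq_multiplicity S
  let R : Subgroup G := (S : Subgroup N).map N.subtype
  have hRc : Nat.card R = s ^ (Nat.card N).factorization s := by
    rw [← hSc]
    exact (Nat.card_congr ((S : Subgroup N).equivMapOfInjective N.subtype N.subtype_injective).toEquiv).symm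
  let H : Subgroup G := Subgroup.normalizer (R : Set G)
  have hH : H ⊔ N = ⊤ := Sylow.normalizer_sup_eq_top S
  let f : H →* MulAut R := R.normalizerMonoidHom
  let π : H →* G ⧸ N := (QuotientGroup.mk' N).comp H.subtype
  have hπ : Function.Surjective π := by
    intro z
    obtain ⟨g, rfl⟩ := QuotientGroup.mk'_surjective N z
    have hg : g ∈ H ⊔ N := hH ▸ Subgroup.mem_top g
    obtain ⟨h, hh, n, hn, rfl⟩ := Subgroup.mem_sup_of_normal_right.1 hg
    refine ⟨⟨h, hh⟩, ?_⟩
    change QuotientGroup.mk' N h = QuotientGroup.mk' N (h * n)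
    rw [map_mul, (QuotientGroup.eq_one_iff n).2 hn |> fun e : QuotientGroup.mk' N n = 1 => e, mul_one]
  let C : Subgroup H := f.ker
  have hCmem : ∀ c : H, c ∈ C → (c : G) ∈ Subgroup.centralizer (R : Set G) := by
    intro c hc
    have h1 : c ∈ (Subgroup.centralizer (R : Set G)).subgroupOf H := by
      rw [← Subgroup.normalizerMonoidHom_ker]
      exact hc
    exact h1
  have h1 : 1 ≤ (Nat.card N).factorization s := (hs.dvd_iff_one_le_factorization Nat.card_pos.ne').1 hsN
  have hpC : ¬ p ∣ Nat.card C := by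
    intro h
    obtain ⟨x, hx⟩ := exists_prime_orderOf_dvd_card' (G := C) p h
    obtain ⟨y, hy⟩ := exists_prime_orderOf_dvd_card' (G := R) s (by
      rw [hRc]
      exact dvd_pow_self s (by omega))
    refine hadj ⟨x.1.1 * y.1, order_mul hp hs hne ?_ ?_ ?_⟩
    · rw [Subgroup.orderOf_coe, Subgroup.orderOf_coe, hx]
    · rw [Subgroup.orderOf_coe, hy]
    · exact (Subgroup.mem_centralizer_iff.1 (hCmem x.1 x.2) y.1 y.2).symm
  let C' : Subgroup (G ⧸ N) := C.map π
  have hC'n : C'.Normal := Subgroup.Normal.map (MonoidHom.normal_ker f) π hπ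
  have hpC' : ¬ p ∣ Nat.card C' := fun h => hpC (h.trans (Subgroup.card_map_dvd (H := C) π))
  have hVC : C'.subgroupOf V = ⊥ := by
    have hn : (C'.subgroupOf V).Normal := inferInstance
    rcases hn.eq_bot_or_eq_top with h | h
    · exact h
    · exfalso
      rw [Subgroup.subgroupOf_eq_top] at h
      exact hpC' (hpV.trans (Subgroup.card_dvd_of_le h))
  have hd1 : Nat.card V ∣ C'.index := by
    have h2 : C'.relIndex V = Nat.card V := by
      rw [Subgroup.relIndex, hVC, Subgroup.index_bot]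
    rw [← h2]
    exact Subgroup.relIndex_dvd_index_of_normal C' V
  have hd2 : C'.index ∣ C.index := by
    have h2 : C'.index = (C ⊔ π.ker).index * π.range.index := Subgroup.index_map C π
    rw [MonoidHom.range_eq_top.2 hπ, Subgroup.index_top, mul_one] at h2
    rw [h2]
    exact Subgroup.index_dvd_of_le le_sup_left
  have hd3 : C.index = Nat.card f.range := Subgroup.index_ker f
  obtain ⟨α, hα⟩ := exists_prime_orderOf_dvd_card' (G := f.range) t (by
    rw [← hd3]
    exact (htV.trans hd1).trans hd2)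
  exact dvd_of_aut hs ht hts hRc α.1 (by rw [Subgroup.orderOf_coe, hα])

end Cfsg.Agent.H418.Deficit
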