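import Mathlib
import Cfsg.Agent.PermutationGroups.SharpThreeEvenMain
import Cfsg.Agent.PermutationGroups.SharplyTwoTransitive

/-!
# Sharply 3-transitive groups in which every element swapping two points is an involution (helper418)

They are the groups `PGL(2, F)`.
-/

set_option autoImplicit false

namespace Cfsg.Agent.H418.SharpSwap

open Equiv
open Cfsg.Agent.PermutationGroups

universe u

theorem core1 {K : Type u} [Finite K] [Nontrivial K]
    (G : Subgroup (Perm (Option K)))
    (h3 : ∀ a b c a' b' c' : Option K, a ≠ b → a ≠ c → b ≠ c → a' ≠ b' → a' ≠ c' → b' ≠ c' →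
      ∃ g ∈ G, g a = a' ∧ g b = b' ∧ g c = c')
    (hs : ∀ g ∈ G, ∀ a b c : Option K, a ≠ b → a ≠ c → b ≠ c → g a = a → g b = b → g c = c → g = 1)
    (hw : ∀ g ∈ G, ∀ a b : Option K, a ≠ b → g a = b → g b = a → g * g = 1) :
    ∃ F : Field K, (∀ b : K, ∃ g ∈ G, g none = none ∧ ∀ y : K, g (some y) = some (F.add b y)) ∧
      (∀ a : K, a ≠ F.zero → ∃ g ∈ G, g none = none ∧ ∀ y : K, g (some y) = some (F.mul a y)) ∧
      (∃ g ∈ G, g none = some F.zero ∧ g (some F.zero) = none ∧
        ∀ y : K, y ≠ F.zero → g (some y) = some (F.inv y)) := by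
  classical
  obtain ⟨o, e, hoe'⟩ := exists_pair_ne K
  have he : e ≠ o := hoe'.symm
  have hno : (none : Option K) ≠ some o := by simp
  have hne : (none : Option K) ≠ some e := by simp
  have hoe : (some o : Option K) ≠ some e := fun h => he (Option.some.inj h).symm
  -- The stabiliser as a group of permutations of `K`
  let T : Subgroup (Perm K) :=
    { carrier := {p | (Equiv.optionCongr p : Perm (Option K)) ∈ G}
      mul_mem' := by
        intro p q hp hq
        show Equiv.optionCongr (p * q) ∈ G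
        rw [SharpThreeEvenMain.optionCongr_mul']
        exact G.mul_mem hp hq
      one_mem' := by
        show Equiv.optionCongr (1 : Perm K) ∈ G
        rw [Equiv.optionCongr_one]
        exact G.one_mem
      inv_mem' := by
        intro p hp
        have : (Equiv.optionCongr p⁻¹ : Perm (Option K)) = (Equiv.optionCongr p : Perm (Option K))⁻¹ := by
          apply eq_inv_of_mul_eq_one_left
          rw [← SharpThreeEvenMain.optionCongr_mul', inv_mul_cancel, Equiv.optionCongr_one]
        show (Equiv.optionCongr p⁻¹ : Perm (Option K)) ∈ G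
        rw [this]
        exact G.inv_mem hp }
  have hTmem : ∀ p : Perm K, p ∈ T ↔ (Equiv.optionCongr p : Perm (Option K)) ∈ G := fun p => Iff.rfl
  have hlift : ∀ g ∈ G, g none = none → ∃ p ∈ T, (Equiv.optionCongr p : Perm (Option K)) = g := by
    intro g hg h
    have h1 := map_equiv_removeNone g
    rw [h, Equiv.swap_self] at h1
    have h2 : ((Equiv.refl (Option K) : Perm (Option K)) * g) = g := rfl
    rw [h2] at h1
    exact ⟨removeNone g, by rw [hTmem, h1]; exact hg, h1⟩
  have hT2 : ∀ a b a' b' : K, a ≠ b → a' ≠ b' → ∃ g ∈ T, g a = a' ∧ g b = b' := by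
    intro a b a' b' hab hab'
    obtain ⟨g, hg, h1, h2, h4⟩ := h3 none (some a) (some b) none (some a') (some b') (by simp)
      (by simp) (by simpa using hab) (by simp) (by simp) (by simpa using hab')
    obtain ⟨p, hp, hpg⟩ := hlift g hg h1
    refine ⟨p, hp, ?_, ?_⟩
    · rw [← hpg] at h2
      exact Option.some.inj h2
    · rw [← hpg] at h4
      exact Option.some.inj h4
  have hTs : ∀ g ∈ T, ∀ a b : K, a ≠ b → g a = a → g b = b → g = 1 := by
    intro g hg a b hab ha hb
    have h1 := hs _ hg none (some a) (some b) (by simp) (by simp) (by simpa using hab) rfl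
      (congrArg some ha) (congrArg some hb)
    rw [← Equiv.optionCongr_one] at h1
    exact Equiv.optionCongr_injective h1
  -- the regular normal subgroup
  obtain ⟨N, hNT, hNc, hNt, hTN⟩ : ∃ N : Subgroup (Perm K), N ≤ T ∧
      (∀ x ∈ N, ∀ y ∈ N, x * y = y * x) ∧ (∀ x, ∃ a ∈ N, a o = x) ∧
      (∀ g ∈ T, ∀ a ∈ N, g * a * g⁻¹ ∈ N) := by
    obtain ⟨N, hNn, hNmem, hNc, hNt, hNcard, hNconj⟩ :=
      SharplyTwoTransitive.exists_regular_normal (G := T) (α := K)
        (by
          intro a b c d hab hcd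
          obtain ⟨g, hg, h1, h2⟩ := hT2 a b c d hab hcd
          exact ⟨⟨g, hg⟩, h1, h2⟩)
        (by
          intro g a b hab ha hb
          exact Subtype.ext (hTs g g.2 a b hab ha hb))
    refine ⟨N.map T.subtype, ?_, ?_, ?_, ?_⟩
    · rintro _ ⟨x, _, rfl⟩
      exact x.2
    · rintro _ ⟨x, hx, rfl⟩ _ ⟨y, hy, rfl⟩
      rw [← map_mul, hNc x hx y hy, map_mul]
    · intro x
      obtain ⟨a, ha, hax⟩ := hNt o x
      exact ⟨_, ⟨a, ha, rfl⟩, hax⟩
    · rintro g hg _ ⟨a, ha, rfl⟩
      exact ⟨⟨g, hg⟩ * a * ⟨g, hg⟩⁻¹, hNn.conj_mem a ha _, rfl⟩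
  -- the swapping involution
  obtain ⟨t, htG, ht1, ht2, ht3⟩ := h3 none (some o) (some e) (some o) none (some e) hno hne hoe
    hno.symm hoe hne
  have htt : t * t = 1 := hw t htG _ _ hno ht1 ht2
  let H : Subgroup (Perm K) := T ⊓ MulAction.stabilizer (Perm K) o
  have hHT : ∀ h ∈ H, h ∈ T := fun h hh => hh.1
  have hH0 : ∀ h ∈ H, h o = o := fun h hh => hh.2
  have hHt : ∀ x, x ≠ o → ∃ h ∈ H, h e = x := by
    intro x hx
    obtain ⟨g, hg, h1, h2⟩ := hT2 o e o x he.symm (Ne.symm hx)
    exact ⟨g, ⟨hg, h1⟩, h2⟩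
  -- `t` inverts `H`
  have hinvH : ∀ h ∈ H, t * (Equiv.optionCongr h : Perm (Option K)) * t =
      (Equiv.optionCongr h : Perm (Option K))⁻¹ := by
    intro h hh
    have h1 : ((Equiv.optionCongr h : Perm (Option K)) * t) * ((Equiv.optionCongr h : Perm (Option K)) * t) = 1 := by
      refine hw _ (G.mul_mem (hHT h hh) htG) none (some o) hno ?_ ?_
      · rw [Perm.mul_apply, ht1]
        show some (h o) = some o
        rw [hH0 h hh]
      · rw [Perm.mul_apply, ht2]
        rfl
    apply eq_inv_of_mul_eq_one_right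
    rw [← h1]
    group
  have hHc : ∀ a ∈ H, ∀ b ∈ H, a * b = b * a := by
    intro a ha b hb
    have h1 := hinvH (a * b) (H.mul_mem ha hb)
    have h2 : t * (Equiv.optionCongr (a * b) : Perm (Option K)) * t =
        (t * (Equiv.optionCongr a : Perm (Option K)) * t) * (t * (Equiv.optionCongr b : Perm (Option K)) * t) := by
      rw [SharpThreeEvenMain.optionCongr_mul']
      have : t * (Equiv.optionCongr a : Perm (Option K)) * t * (t * (Equiv.optionCongr b : Perm (Option K)) * t) =
        t * (Equiv.optionCongr a : Perm (Option K)) * (t * t) * (Equiv.optionCongr b : Perm (Option K)) * t := by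
        group
      rw [this, htt, mul_one]
      group
    rw [h2, hinvH a ha, hinvH b hb, ← mul_inv_rev, inv_inj, ← SharpThreeEvenMain.optionCongr_mul'] at h1
    exact (Equiv.optionCongr_injective h1).symm
  obtain ⟨F, hF1, hF2, hF0, hFe⟩ := FieldOfAffine.exists_field N H o e he.symm hNc hNt hHc hH0 hHt
    (fun h hh a ha => hTN h (hHT h hh) a ha)
  have hinv : ∀ y : K, y ≠ o → t (some y) = some (F.inv y) := by
    intro y hy
    obtain ⟨h, hh, hhy⟩ := hHt y hy
    have h1 : t (some y) = (Equiv.optionCongr h : Perm (Option K))⁻¹ (some e) := by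
      rw [← hinvH h hh, Perm.mul_apply, Perm.mul_apply, ht3]
      show t (some y) = t (some (h e))
      rw [hhy]
    have h2 : (Equiv.optionCongr h : Perm (Option K))⁻¹ (some e) = some (h⁻¹ e) := by
      rw [Perm.inv_eq_iff_eq]
      show some e = some (h (h⁻¹ e))
      exact congrArg some (h.apply_symm_apply e).symm
    rw [h1, h2]
    congr 1
    let _ := F
    have e0 : (0 : K) = o := hF0
    have e1 : (1 : K) = e := hFe
    have h3 : h (h⁻¹ e) = h e * h⁻¹ e := hF2 h hh _
    have h5 : h (h⁻¹ e) = e := h.apply_symm_apply e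
    rw [h5, hhy, ← e1] at h3
    rw [← e1]
    have hy0 : y ≠ 0 := by rw [e0]; exact hy
    exact eq_inv_of_mul_eq_one_right h3.symm
  refine ⟨F, ?_, ?_, ?_⟩
  · intro b
    obtain ⟨a, ha, hab⟩ := hNt b
    refine ⟨Equiv.optionCongr a, hNT ha, rfl, ?_⟩
    intro y
    show some (a y) = _
    rw [hF1 a ha y, hab]
  · intro a ha0
    rw [hF0] at ha0
    obtain ⟨h, hh, hha⟩ := hHt a ha0
    refine ⟨Equiv.optionCongr h, hHT h hh, rfl, ?_⟩
    intro y
    show some (h y) = _
    rw [hF2 h hh y, hha]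
  · rw [hF0]
    exact ⟨t, htG, ht1, ht2, hinv⟩

/-- A sharply 3-transitive group in which every element swapping two points is an involution is
some `PGL(2, F)`. -/
theorem main {α : Type*} [Fintype α] {n : ℕ} (hn : 2 ≤ n)
    (hα : Fintype.card α = n + 1) (G : Subgroup (Perm α))
    (h3 : ∀ a b c a' b' c' : α, a ≠ b → a ≠ c → b ≠ c → a' ≠ b' → a' ≠ c' → b' ≠ c' →
      ∃ g ∈ G, g a = a' ∧ g b = b' ∧ g c = c')
    (hs : ∀ g ∈ G, ∀ a b c : α, a ≠ b → a ≠ c → b ≠ c → g a = a → g b = b → g c = c → g = 1)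
    (hw : ∀ g ∈ G, ∀ a b : α, a ≠ b → g a = b → g b = a → g * g = 1) :
    ∃ (F : Type) (_ : Field F) (_ : Fintype F), Fintype.card F = n ∧
      Nonempty (G ≃* Matrix.ProjGenLinGroup (Fin 2) F) := by
  classical
  have hcard : Fintype.card α = Fintype.card (Option (Fin n)) := by
    rw [hα, Fintype.card_option, Fintype.card_fin]
  let ε : α ≃ Option (Fin n) := Fintype.equivOfCardEq hcard
  let E : Perm α ≃* Perm (Option (Fin n)) := ε.permCongrHom
  have hE : ∀ (g : Perm α) (x : α), E g (ε x) = ε (g x) := by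
    intro g x
    show ε (g (ε.symm (ε x))) = ε (g x)
    rw [ε.symm_apply_apply]
  let G' : Subgroup (Perm (Option (Fin n))) := G.map E.toMonoidHom
  have h3' : ∀ a b c a' b' c' : Option (Fin n), a ≠ b → a ≠ c → b ≠ c → a' ≠ b' → a' ≠ c' → b' ≠ c' →
      ∃ g ∈ G', g a = a' ∧ g b = b' ∧ g c = c' := by
    intro a b c a' b' c' h1 h2 h3a h4 h5 h6
    obtain ⟨g, hg, hga, hgb, hgc⟩ := h3 (ε.symm a) (ε.symm b) (ε.symm c) (ε.symm a') (ε.symm b')
      (ε.symm c') (ε.symm.injective.ne h1) (ε.symm.injective.ne h2) (ε.symm.injective.ne h3a)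
      (ε.symm.injective.ne h4) (ε.symm.injective.ne h5) (ε.symm.injective.ne h6)
    refine ⟨E g, ⟨g, hg, rfl⟩, ?_, ?_, ?_⟩
    · have := hE g (ε.symm a)
      rwa [hga, ε.apply_symm_apply, ε.apply_symm_apply] at this
    · have := hE g (ε.symm b)
      rwa [hgb, ε.apply_symm_apply, ε.apply_symm_apply] at this
    · have := hE g (ε.symm c)
      rwa [hgc, ε.apply_symm_apply, ε.apply_symm_apply] at this
  have key : ∀ (g : Perm α) (x y : Option (Fin n)), E g x = y → g (ε.symm x) = ε.symm y := by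
    intro g x y hx
    have h4 := hE g (ε.symm x)
    rw [ε.apply_symm_apply, hx] at h4
    exact (ε.symm_apply_eq.2 h4).symm
  have hs' : ∀ g ∈ G', ∀ a b c : Option (Fin n), a ≠ b → a ≠ c → b ≠ c →
      g a = a → g b = b → g c = c → g = 1 := by
    rintro _ ⟨g, hg, rfl⟩ a b c h1 h2 h3a ha hb hc
    have h7 := hs g hg _ _ _ (ε.symm.injective.ne h1) (ε.symm.injective.ne h2)
      (ε.symm.injective.ne h3a) (key g a a ha) (key g b b hb) (key g c c hc)
    rw [h7, map_one]
  have hw' : ∀ g ∈ G', ∀ a b : Option (Fin n), a ≠ b → g a = b → g b = a → g * g = 1 := by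
    rintro _ ⟨g, hg, rfl⟩ a b h1 ha hb
    have h7 := hw g hg _ _ (ε.symm.injective.ne h1) (key g a b ha) (key g b a hb)
    rw [← map_mul, h7, map_one]
  have : Nontrivial (Fin n) := Fin.nontrivial_iff_two_le.2 hn
  obtain ⟨F, hN, hH, ht⟩ := core1 G' h3' hs' hw'
  refine ⟨Fin n, F, inferInstance, Fintype.card_fin _, ?_⟩
  let _ := F
  have hcore := SharpThreeEven.core2 (K := Fin n) G' h3' hs' hN hH ht
  obtain ⟨e2⟩ := hcore
  have e1 : G ≃* G' := E.subgroupMap G
  exact ⟨e1.trans e2⟩

end Cfsg.Agent.H418.SharpSwap
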