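import Cfsg.Agent.OrdDiv.Table
import Cfsg.Agent.H418.Rule
import Cfsg.Agent.H418.UNums
import Cfsg.Agent.H418.SUEig
import Cfsg.Agent.S0280

/-!
# `PSU₃(q)`, `PSU₄(q)`: recognition by the order and the degree pattern (helper418)
-/

set_option autoImplicit false

namespace Cfsg.Agent.H418.URecog

open Cfsg Cfsg.Agent.OrdDiv Cfsg.Agent.H418.Rule Cfsg.Agent.H418.UNums Cfsg.Agent.H418.SUEig

theorem card_psu {F : Type*} [Field F] [Fintype F] {n q : ℕ} (hF : Fintype.card F = q ^ 2) (hn : 3 ≤ n) :
    Nat.card (PSU n F q) = ordN (.psu n q) := by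
  have hc : fPSU.den n q * Nat.card (PSU n F q) = fPSU.num n q := by
    have h := S0280.result hF n (by omega)
    rw [← prod_list] at h
    change Nat.gcd n (q + 1) * (q + 1) * _ = q ^ (n * (n - 1) / 2) * prU q n
    have h2 : prU q n = ((List.range n).map fun i => if Even i then q ^ (i + 1) + 1 else q ^ (i + 1) - 1).prod := by
      unfold prU
      congr 1
      apply List.map_congr_left
      intro i _
      by_cases h : Even i
      · rw [if_pos h, if_pos]
        rw [Nat.beq_eq]
        exact Nat.even_iff.1 h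
      · rw [if_neg h, if_neg]
        rw [Nat.beq_eq, ← Nat.even_iff]
        exact h
    rw [h2, mul_assoc]
    exact h
  have hd : 0 < fPSU.den n q := Nat.mul_pos (Nat.gcd_pos_of_pos_right _ (Nat.succ_pos q)) (Nat.succ_pos q)
  exact (Nat.div_eq_of_eq_mul_right hd hc.symm).symm

/-- the number of the primes `≠ p` in the list -/
def oth (p : ℕ) (l : List (ℕ × ℕ)) : ℕ := ((l.map Prod.fst).filter fun s => !(Nat.beq s p)).length

theorem nb_le {X : Type*} [Group X] [Finite X] {p M : ℕ} {lM : List (ℕ × ℕ)} (hv : valid lM M = true)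
    (h : ∀ x : X, p ∣ orderOf x → x ^ M = 1) : (nb X p).ncard ≤ oth p lM := by
  classical
  unfold oth
  refine le_trans ?_ (List.toFinset_card_le _)
  rw [← Set.ncard_coe_finset]
  apply Set.ncard_le_ncard _ (Finset.finite_toSet _)
  rintro s ⟨hs, -, hne, x, hx⟩
  rw [Finset.mem_coe, List.mem_toFinset, List.mem_filter, List.mem_map]
  have h1 : s ∣ M := by
    have h2 := h x (hx ▸ Dvd.intro _ rfl)
    exact (Dvd.intro_left _ rfl : s ∣ p * s).trans (hx ▸ orderOf_dvd_of_pow_eq_one h2)
  obtain ⟨k, hk⟩ := exists_of_dvd_prodl hs (valid_prime hv) (by rw [valid_prod hv]; exact h1)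
  refine ⟨⟨_, hk, rfl⟩, ?_⟩
  rw [Bool.not_eq_true', ← Bool.not_eq_true, Nat.beq_eq]
  exact hne

universe u v

theorem finish (T : OrderTable.{u})
    (hS : ∀ (S : Type u) [Group S] [Finite S] [IsSimpleGroup S], IsKnownSimple' S)
    {F : Type v} [Field F] [Fintype F] {n q : ℕ} (hF : Fintype.card F = q ^ 2) (hn : 3 ≤ n)
    {l lM : List (ℕ × ℕ)} {N p d M : ℕ} (hc : Chk l N p d (.psu n q)) (hv : valid lM M = true) (hd : oth p lM ≤ d)
    (hM : ∀ x : PSU n F q, p ∣ orderOf x → x ^ M = 1)
    {G : Type u} [Group G] [Finite G] (hcard : Nat.card G = Nat.card (PSU n F q))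
    (hD : ∀ r : ℕ, r.Prime → (nb G r).ncard = (nb (PSU n F q) r).ncard) : Nonempty (G ≃* PSU n F q) := by
  obtain ⟨h1, h2, h3, h4, h5, h6⟩ := hc
  have : Finite (PSU n F q) := inferInstance
  have hp : p.Prime := valid_prime h1 _ h3
  obtain ⟨V, _, ⟨F', _, _, hF', ⟨e⟩⟩, ⟨e'⟩⟩ := recog T hS h1 h2 h3 h4 h5 h6 (G := G)
    (by rw [hcard, card_psu hF hn, h6]) (by rw [hD p hp]; exact (nb_le hv hM).trans hd)
  exact ⟨(e'.trans e).trans (ChevalleyStructure.FieldIso.PSUEquiv n q
    (FiniteField.ringEquivOfCardEq (hF'.trans hF.symm)))⟩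

/-- the numerical data for `PSU₃(q)` -/
def Row3 (q : ℕ) : Prop :=
  ∃ (l lM : List (ℕ × ℕ)) (N p d M : ℕ), Chk l N p d (.psu 3 q) ∧ valid lM M = true ∧ oth p lM ≤ d ∧
    p ∣ q ^ 2 - q + 1 ∧ p ≠ 3 ∧ M * Nat.gcd 3 (q + 1) = q ^ 2 - q + 1

/-- the numerical data for `PSU₄(q)` -/
def Row4 (q : ℕ) : Prop :=
  ∃ (l lM : List (ℕ × ℕ)) (N p d M : ℕ), Chk l N p d (.psu 4 q) ∧ valid lM M = true ∧ oth p lM ≤ d ∧
    ((p ∣ q ^ 2 - q + 1 ∧ p ≠ 3 ∧ M * Nat.gcd 4 (q + 1) = q ^ 3 + 1) ∨
      (p ∣ q ^ 2 + 1 ∧ p ≠ 2 ∧ M * Nat.gcd 4 (q + 1) = (q - 1) * (q ^ 2 + 1) ∧ 1 < q))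

theorem of_row3 (T : OrderTable.{u})
    (hS : ∀ (S : Type u) [Group S] [Finite S] [IsSimpleGroup S], IsKnownSimple' S)
    {F : Type v} [Field F] [Fintype F] {q : ℕ} (hF : Fintype.card F = q ^ 2) (hr : Row3 q)
    {G : Type u} [Group G] [Finite G] (hcard : Nat.card G = Nat.card (PSU 3 F q))
    (hD : ∀ r : ℕ, r.Prime → (nb G r).ncard = (nb (PSU 3 F q) r).ncard) : Nonempty (G ≃* PSU 3 F q) := by
  obtain ⟨l, lM, N, p, d, M, hc, hv, hd, h1, h2, h3⟩ := hr
  have hp : p.Prime := valid_prime hc.1 _ hc.2.2.1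
  exact finish T hS hF le_rfl hc hv hd (psu_three hF hp h1 h2 h3) hcard hD

theorem of_row4 (T : OrderTable.{u})
    (hS : ∀ (S : Type u) [Group S] [Finite S] [IsSimpleGroup S], IsKnownSimple' S)
    {F : Type v} [Field F] [Fintype F] {q : ℕ} (hF : Fintype.card F = q ^ 2) (hr : Row4 q)
    {G : Type u} [Group G] [Finite G] (hcard : Nat.card G = Nat.card (PSU 4 F q))
    (hD : ∀ r : ℕ, r.Prime → (nb G r).ncard = (nb (PSU 4 F q) r).ncard) : Nonempty (G ≃* PSU 4 F q) := by
  obtain ⟨l, lM, N, p, d, M, hc, hv, hd, h⟩ := hr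
  have hp : p.Prime := valid_prime hc.1 _ hc.2.2.1
  rcases h with ⟨h1, h2, h3⟩ | ⟨h1, h2, h3, h4⟩
  · exact finish T hS hF (by norm_num) hc hv hd (psu_four hF hp h1 h2 h3) hcard hD
  · exact finish T hS hF (by norm_num) hc hv hd (psu_four' hF hp h1 h2 h3 h4) hcard hD

theorem r3_31 : Row3 31 :=
  ⟨_, [(7, 2), (19, 1)], _, _, _, 931, c3_31, by decide +kernel⟩

theorem r3_37 : Row3 37 :=
  ⟨_, [(31, 1), (43, 1)], _, _, _, 1333, c3_37, by decide +kernel⟩

theorem r3_43 : Row3 43 :=
  ⟨_, [(13, 1), (139, 1)], _, _, _, 1807, c3_43, by decide +kernel⟩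

theorem r3_47 : Row3 47 :=
  ⟨_, [(7, 1), (103, 1)], _, _, _, 721, c3_47, by decide +kernel⟩

theorem r3_49 : Row3 49 :=
  ⟨_, [(13, 1), (181, 1)], _, _, _, 2353, c3_49, by decide +kernel⟩

theorem r3_59 : Row3 59 :=
  ⟨_, [(7, 1), (163, 1)], _, _, _, 1141, c3_59, by decide +kernel⟩

theorem r3_61 : Row3 61 :=
  ⟨_, [(7, 1), (523, 1)], _, _, _, 3661, c3_61, by decide +kernel⟩

theorem r3_64 : Row3 64 :=
  ⟨_, [(37, 1), (109, 1)], _, _, _, 4033, c3_64, by decide +kernel⟩

theorem r3_73 : Row3 73 :=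
  ⟨_, [(7, 1), (751, 1)], _, _, _, 5257, c3_73, by decide +kernel⟩

theorem r3_89 : Row3 89 :=
  ⟨_, [(7, 1), (373, 1)], _, _, _, 2611, c3_89, by decide +kernel⟩

theorem r3_97 : Row3 97 :=
  ⟨_, [(67, 1), (139, 1)], _, _, _, 9313, c3_97, by decide +kernel⟩

theorem r4_9 : Row4 9 :=
  ⟨_, [(5, 1), (73, 1)], _, _, _, 365, c4_9, by decide +kernel, by decide +kernel, Or.inl (by decide +kernel)⟩

theorem r4_11 : Row4 11 :=
  ⟨_, [(3, 2), (37, 1)], _, _, _, 333, c4_11, by decide +kernel, by decide +kernel, Or.inl (by decide +kernel)⟩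

theorem r4_13 : Row4 13 :=
  ⟨_, [(7, 1), (157, 1)], _, _, _, 1099, c4_13, by decide +kernel, by decide +kernel, Or.inl (by decide +kernel)⟩

theorem r4_16 : Row4 16 :=
  ⟨_, [(17, 1), (241, 1)], _, _, _, 4097, c4_16, by decide +kernel, by decide +kernel, Or.inl (by decide +kernel)⟩

theorem r4_17 : Row4 17 :=
  ⟨_, [(2, 4), (5, 1), (29, 1)], _, _, _, 2320, c4_17, by decide +kernel, by decide +kernel, Or.inr (by decide +kernel)⟩

theorem r4_19 : Row4 19 :=
  ⟨_, [(3, 2), (181, 1)], _, _, _, 1629, c4_19, by decide +kernel, by decide +kernel, Or.inr (by decide +kernel)⟩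

theorem r4_23 : Row4 23 :=
  ⟨_, [(5, 1), (11, 1), (53, 1)], _, _, _, 2915, c4_23, by decide +kernel, by decide +kernel, Or.inr (by decide +kernel)⟩

theorem r4_25 : Row4 25 :=
  ⟨_, [(13, 1), (601, 1)], _, _, _, 7813, c4_25, by decide +kernel, by decide +kernel, Or.inl (by decide +kernel)⟩

theorem r4_27 : Row4 27 :=
  ⟨_, [(7, 1), (19, 1), (37, 1)], _, _, _, 4921, c4_27, by decide +kernel, by decide +kernel, Or.inl (by decide +kernel)⟩

theorem r4_29 : Row4 29 :=
  ⟨_, [(3, 2), (5, 1), (271, 1)], _, _, _, 12195, c4_29, by decide +kernel, by decide +kernel, Or.inl (by decide +kernel)⟩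

theorem r4_31 : Row4 31 :=
  ⟨_, [(2, 3), (7, 2), (19, 1)], _, _, _, 7448, c4_31, by decide +kernel, by decide +kernel, Or.inl (by decide +kernel)⟩

theorem r4_32 : Row4 32 :=
  ⟨_, [(3, 2), (11, 1), (331, 1)], _, _, _, 32769, c4_32, by decide +kernel, by decide +kernel, Or.inl (by decide +kernel)⟩

theorem r4_37 : Row4 37 :=
  ⟨_, [(19, 1), (31, 1), (43, 1)], _, _, _, 25327, c4_37, by decide +kernel, by decide +kernel, Or.inl (by decide +kernel)⟩

theorem r4_41 : Row4 41 :=
  ⟨_, [(3, 2), (7, 1), (547, 1)], _, _, _, 34461, c4_41, by decide +kernel, by decide +kernel, Or.inl (by decide +kernel)⟩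

theorem r4_43 : Row4 43 :=
  ⟨_, [(11, 1), (13, 1), (139, 1)], _, _, _, 19877, c4_43, by decide +kernel, by decide +kernel, Or.inl (by decide +kernel)⟩

theorem r4_47 : Row4 47 :=
  ⟨_, [(2, 2), (3, 2), (7, 1), (103, 1)], _, _, _, 25956, c4_47, by decide +kernel, by decide +kernel, Or.inl (by decide +kernel)⟩

theorem r4_49 : Row4 49 :=
  ⟨_, [(5, 2), (13, 1), (181, 1)], _, _, _, 58825, c4_49, by decide +kernel, by decide +kernel, Or.inl (by decide +kernel)⟩

theorem r4_53 : Row4 53 :=
  ⟨_, [(3, 4), (919, 1)], _, _, _, 74439, c4_53, by decide +kernel, by decide +kernel, Or.inl (by decide +kernel)⟩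

theorem r4_59 : Row4 59 :=
  ⟨_, [(3, 2), (5, 1), (7, 1), (163, 1)], _, _, _, 51345, c4_59, by decide +kernel, by decide +kernel, Or.inl (by decide +kernel)⟩

theorem r4_61 : Row4 61 :=
  ⟨_, [(7, 1), (31, 1), (523, 1)], _, _, _, 113491, c4_61, by decide +kernel, by decide +kernel, Or.inl (by decide +kernel)⟩

theorem r4_64 : Row4 64 :=
  ⟨_, [(5, 1), (13, 1), (37, 1), (109, 1)], _, _, _, 262145, c4_64, by decide +kernel, by decide +kernel, Or.inl (by decide +kernel)⟩

theorem r4_67 : Row4 67 :=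
  ⟨_, [(17, 1), (4423, 1)], _, _, _, 75191, c4_67, by decide +kernel, by decide +kernel, Or.inl (by decide +kernel)⟩

theorem r4_71 : Row4 71 :=
  ⟨_, [(2, 1), (3, 3), (1657, 1)], _, _, _, 89478, c4_71, by decide +kernel, by decide +kernel, Or.inl (by decide +kernel)⟩

theorem r4_73 : Row4 73 :=
  ⟨_, [(7, 1), (37, 1), (751, 1)], _, _, _, 194509, c4_73, by decide +kernel, by decide +kernel, Or.inl (by decide +kernel)⟩

theorem r4_79 : Row4 79 :=
  ⟨_, [(2, 2), (5, 1), (6163, 1)], _, _, _, 123260, c4_79, by decide +kernel, by decide +kernel, Or.inl (by decide +kernel)⟩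

theorem r4_81 : Row4 81 :=
  ⟨_, [(41, 1), (6481, 1)], _, _, _, 265721, c4_81, by decide +kernel, by decide +kernel, Or.inl (by decide +kernel)⟩

theorem r4_83 : Row4 83 :=
  ⟨_, [(3, 2), (7, 1), (2269, 1)], _, _, _, 142947, c4_83, by decide +kernel, by decide +kernel, Or.inl (by decide +kernel)⟩

theorem r4_89 : Row4 89 :=
  ⟨_, [(3, 3), (5, 1), (7, 1), (373, 1)], _, _, _, 352485, c4_89, by decide +kernel, by decide +kernel, Or.inl (by decide +kernel)⟩

theorem r4_97 : Row4 97 :=
  ⟨_, [(7, 2), (67, 1), (139, 1)], _, _, _, 456337, c4_97, by decide +kernel, by decide +kernel, Or.inl (by decide +kernel)⟩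

theorem not_pp {q r s : ℕ} (h : IsPrimePow q) (hr : r.Prime) (hs : s.Prime) (hne : r ≠ s) (h1 : r ∣ q) (h2 : s ∣ q) :
    False := by
  obtain ⟨p, k, hp, -, rfl⟩ := (isPrimePow_nat_iff q).1 h
  have h3 := (Nat.prime_dvd_prime_iff_eq hr hp).1 (hr.dvd_of_dvd_pow h1)
  have h4 := (Nat.prime_dvd_prime_iff_eq hs hp).1 (hs.dvd_of_dvd_pow h2)
  exact hne (h3.trans h4.symm)

theorem row4_all {q : ℕ} (h9 : 9 ≤ q) (h100 : q < 100) (hq : IsPrimePow q) : Row4 q := by
  interval_cases q
  · exact r4_9
  · exact (not_pp hq (r := 2) (s := 5) (by norm_num) (by norm_num) (by norm_num) (by norm_num) (by norm_num)).elim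
  · exact r4_11
  · exact (not_pp hq (r := 2) (s := 3) (by norm_num) (by norm_num) (by norm_num) (by norm_num) (by norm_num)).elim
  · exact r4_13
  · exact (not_pp hq (r := 2) (s := 7) (by norm_num) (by norm_num) (by norm_num) (by norm_num) (by norm_num)).elim
  · exact (not_pp hq (r := 3) (s := 5) (by norm_num) (by norm_num) (by norm_num) (by norm_num) (by norm_num)).elim
  · exact r4_16
  · exact r4_17
  · exact (not_pp hq (r := 2) (s := 3) (by norm_num) (by norm_num) (by norm_num) (by norm_num) (by norm_num)).elim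
  · exact r4_19
  · exact (not_pp hq (r := 2) (s := 5) (by norm_num) (by norm_num) (by norm_num) (by norm_num) (by norm_num)).elim
  · exact (not_pp hq (r := 3) (s := 7) (by norm_num) (by norm_num) (by norm_num) (by norm_num) (by norm_num)).elim
  · exact (not_pp hq (r := 2) (s := 11) (by norm_num) (by norm_num) (by norm_num) (by norm_num) (by norm_num)).elim
  · exact r4_23
  · exact (not_pp hq (r := 2) (s := 3) (by norm_num) (by norm_num) (by norm_num) (by norm_num) (by norm_num)).elim
  · exact r4_25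
  · exact (not_pp hq (r := 2) (s := 13) (by norm_num) (by norm_num) (by norm_num) (by norm_num) (by norm_num)).elim
  · exact r4_27
  · exact (not_pp hq (r := 2) (s := 7) (by norm_num) (by norm_num) (by norm_num) (by norm_num) (by norm_num)).elim
  · exact r4_29
  · exact (not_pp hq (r := 2) (s := 3) (by norm_num) (by norm_num) (by norm_num) (by norm_num) (by norm_num)).elim
  · exact r4_31
  · exact r4_32
  · exact (not_pp hq (r := 3) (s := 11) (by norm_num) (by norm_num) (by norm_num) (by norm_num) (by norm_num)).elim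
  · exact (not_pp hq (r := 2) (s := 17) (by norm_num) (by norm_num) (by norm_num) (by norm_num) (by norm_num)).elim
  · exact (not_pp hq (r := 5) (s := 7) (by norm_num) (by norm_num) (by norm_num) (by norm_num) (by norm_num)).elim
  · exact (not_pp hq (r := 2) (s := 3) (by norm_num) (by norm_num) (by norm_num) (by norm_num) (by norm_num)).elim
  · exact r4_37
  · exact (not_pp hq (r := 2) (s := 19) (by norm_num) (by norm_num) (by norm_num) (by norm_num) (by norm_num)).elim
  · exact (not_pp hq (r := 3) (s := 13) (by norm_num) (by norm_num) (by norm_num) (by norm_num) (by norm_num)).elim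
  · exact (not_pp hq (r := 2) (s := 5) (by norm_num) (by norm_num) (by norm_num) (by norm_num) (by norm_num)).elim
  · exact r4_41
  · exact (not_pp hq (r := 2) (s := 3) (by norm_num) (by norm_num) (by norm_num) (by norm_num) (by norm_num)).elim
  · exact r4_43
  · exact (not_pp hq (r := 2) (s := 11) (by norm_num) (by norm_num) (by norm_num) (by norm_num) (by norm_num)).elim
  · exact (not_pp hq (r := 3) (s := 5) (by norm_num) (by norm_num) (by norm_num) (by norm_num) (by norm_num)).elim
  · exact (not_pp hq (r := 2) (s := 23) (by norm_num) (by norm_num) (by norm_num) (by norm_num) (by norm_num)).elim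
  · exact r4_47
  · exact (not_pp hq (r := 2) (s := 3) (by norm_num) (by norm_num) (by norm_num) (by norm_num) (by norm_num)).elim
  · exact r4_49
  · exact (not_pp hq (r := 2) (s := 5) (by norm_num) (by norm_num) (by norm_num) (by norm_num) (by norm_num)).elim
  · exact (not_pp hq (r := 3) (s := 17) (by norm_num) (by norm_num) (by norm_num) (by norm_num) (by norm_num)).elim
  · exact (not_pp hq (r := 2) (s := 13) (by norm_num) (by norm_num) (by norm_num) (by norm_num) (by norm_num)).elim
  · exact r4_53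
  · exact (not_pp hq (r := 2) (s := 3) (by norm_num) (by norm_num) (by norm_num) (by norm_num) (by norm_num)).elim
  · exact (not_pp hq (r := 5) (s := 11) (by norm_num) (by norm_num) (by norm_num) (by norm_num) (by norm_num)).elim
  · exact (not_pp hq (r := 2) (s := 7) (by norm_num) (by norm_num) (by norm_num) (by norm_num) (by norm_num)).elim
  · exact (not_pp hq (r := 3) (s := 19) (by norm_num) (by norm_num) (by norm_num) (by norm_num) (by norm_num)).elim
  · exact (not_pp hq (r := 2) (s := 29) (by norm_num) (by norm_num) (by norm_num) (by norm_num) (by norm_num)).elim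
  · exact r4_59
  · exact (not_pp hq (r := 2) (s := 3) (by norm_num) (by norm_num) (by norm_num) (by norm_num) (by norm_num)).elim
  · exact r4_61
  · exact (not_pp hq (r := 2) (s := 31) (by norm_num) (by norm_num) (by norm_num) (by norm_num) (by norm_num)).elim
  · exact (not_pp hq (r := 3) (s := 7) (by norm_num) (by norm_num) (by norm_num) (by norm_num) (by norm_num)).elim
  · exact r4_64
  · exact (not_pp hq (r := 5) (s := 13) (by norm_num) (by norm_num) (by norm_num) (by norm_num) (by norm_num)).elim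
  · exact (not_pp hq (r := 2) (s := 3) (by norm_num) (by norm_num) (by norm_num) (by norm_num) (by norm_num)).elim
  · exact r4_67
  · exact (not_pp hq (r := 2) (s := 17) (by norm_num) (by norm_num) (by norm_num) (by norm_num) (by norm_num)).elim
  · exact (not_pp hq (r := 3) (s := 23) (by norm_num) (by norm_num) (by norm_num) (by norm_num) (by norm_num)).elim
  · exact (not_pp hq (r := 2) (s := 5) (by norm_num) (by norm_num) (by norm_num) (by norm_num) (by norm_num)).elim
  · exact r4_71
  · exact (not_pp hq (r := 2) (s := 3) (by norm_num) (by norm_num) (by norm_num) (by norm_num) (by norm_num)).elim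
  · exact r4_73
  · exact (not_pp hq (r := 2) (s := 37) (by norm_num) (by norm_num) (by norm_num) (by norm_num) (by norm_num)).elim
  · exact (not_pp hq (r := 3) (s := 5) (by norm_num) (by norm_num) (by norm_num) (by norm_num) (by norm_num)).elim
  · exact (not_pp hq (r := 2) (s := 19) (by norm_num) (by norm_num) (by norm_num) (by norm_num) (by norm_num)).elim
  · exact (not_pp hq (r := 7) (s := 11) (by norm_num) (by norm_num) (by norm_num) (by norm_num) (by norm_num)).elim
  · exact (not_pp hq (r := 2) (s := 3) (by norm_num) (by norm_num) (by norm_num) (by norm_num) (by norm_num)).elim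
  · exact r4_79
  · exact (not_pp hq (r := 2) (s := 5) (by norm_num) (by norm_num) (by norm_num) (by norm_num) (by norm_num)).elim
  · exact r4_81
  · exact (not_pp hq (r := 2) (s := 41) (by norm_num) (by norm_num) (by norm_num) (by norm_num) (by norm_num)).elim
  · exact r4_83
  · exact (not_pp hq (r := 2) (s := 3) (by norm_num) (by norm_num) (by norm_num) (by norm_num) (by norm_num)).elim
  · exact (not_pp hq (r := 5) (s := 17) (by norm_num) (by norm_num) (by norm_num) (by norm_num) (by norm_num)).elim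
  · exact (not_pp hq (r := 2) (s := 43) (by norm_num) (by norm_num) (by norm_num) (by norm_num) (by norm_num)).elim
  · exact (not_pp hq (r := 3) (s := 29) (by norm_num) (by norm_num) (by norm_num) (by norm_num) (by norm_num)).elim
  · exact (not_pp hq (r := 2) (s := 11) (by norm_num) (by norm_num) (by norm_num) (by norm_num) (by norm_num)).elim
  · exact r4_89
  · exact (not_pp hq (r := 2) (s := 3) (by norm_num) (by norm_num) (by norm_num) (by norm_num) (by norm_num)).elim
  · exact (not_pp hq (r := 7) (s := 13) (by norm_num) (by norm_num) (by norm_num) (by norm_num) (by norm_num)).elim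
  · exact (not_pp hq (r := 2) (s := 23) (by norm_num) (by norm_num) (by norm_num) (by norm_num) (by norm_num)).elim
  · exact (not_pp hq (r := 3) (s := 31) (by norm_num) (by norm_num) (by norm_num) (by norm_num) (by norm_num)).elim
  · exact (not_pp hq (r := 2) (s := 47) (by norm_num) (by norm_num) (by norm_num) (by norm_num) (by norm_num)).elim
  · exact (not_pp hq (r := 5) (s := 19) (by norm_num) (by norm_num) (by norm_num) (by norm_num) (by norm_num)).elim
  · exact (not_pp hq (r := 2) (s := 3) (by norm_num) (by norm_num) (by norm_num) (by norm_num) (by norm_num)).elim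
  · exact r4_97
  · exact (not_pp hq (r := 2) (s := 7) (by norm_num) (by norm_num) (by norm_num) (by norm_num) (by norm_num)).elim
  · exact (not_pp hq (r := 3) (s := 11) (by norm_num) (by norm_num) (by norm_num) (by norm_num) (by norm_num)).elim

theorem row3_all {q : ℕ} (hq : q ∈ ({31, 37, 43, 47, 49, 59, 61, 64, 73, 89, 97} : Finset ℕ)) : Row3 q := by
  simp only [Finset.mem_insert, Finset.mem_singleton] at hq
  rcases hq with rfl | rfl | rfl | rfl | rfl | rfl | rfl | rfl | rfl | rfl | rfl
  · exact r3_31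
  · exact r3_37
  · exact r3_43
  · exact r3_47
  · exact r3_49
  · exact r3_59
  · exact r3_61
  · exact r3_64
  · exact r3_73
  · exact r3_89
  · exact r3_97

end Cfsg.Agent.H418.URecog
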